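import Cfsg.Agent.Gross.Reflection
import Cfsg.Agent.PGroup.Frattini
import Cfsg.Agent.Lib.Element
import Mathlib.GroupTheory.Transfer

/-!
# Reflections and the involutions of a normal 2-subgroup

The lemmas on symplectic reflections which are needed for the bound of the 2-length by the exponent.
-/

set_option autoImplicit false
set_option linter.unusedSectionVars false
set_option linter.style.haveILetI false

namespace Cfsg.Agent.TwoLen

open Module LinearMap Subgroup Cfsg.Agent.Gross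

variable {q : ℕ} {H : Type*} [Group H] {V : Type*} [AddCommGroup V] [Module (ZMod q) V]

/-- The elements acting as `1` or as `-1` on `U`. -/
def scalarOn (σ : H →* Module.End (ZMod q) V) (U : Submodule (ZMod q) V) : Subgroup H where
  carrier := {g | (∀ u ∈ U, σ g u = u) ∨ (∀ u ∈ U, σ g u = -u)}
  one_mem' := Or.inl fun u _ => by rw [map_one, Module.End.one_apply]
  mul_mem' {a b} ha hb := by
    rcases ha with ha | ha <;> rcases hb with hb | hb
    · exact Or.inl fun u hu => by rw [map_mul, Module.End.mul_apply, hb u hu, ha u hu]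
    · exact Or.inr fun u hu => by rw [map_mul, Module.End.mul_apply, hb u hu, map_neg, ha u hu]
    · exact Or.inr fun u hu => by rw [map_mul, Module.End.mul_apply, hb u hu, ha u hu]
    · exact Or.inl fun u hu => by rw [map_mul, Module.End.mul_apply, hb u hu, map_neg, ha u hu, neg_neg]
  inv_mem' {a} ha := by
    rcases ha with ha | ha
    · exact Or.inl fun u hu => by conv_lhs => rw [← ha u hu]; rw [apply_inv_apply]
    · refine Or.inr fun u hu => ?_
      have h := apply_inv_apply σ a u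
      rw [ha u hu, map_neg] at h
      exact neg_eq_iff_eq_neg.1 h

theorem mem_scalarOn {σ : H →* Module.End (ZMod q) V} {U : Submodule (ZMod q) V} {g : H} :
    g ∈ scalarOn σ U ↔ (∀ u ∈ U, σ g u = u) ∨ (∀ u ∈ U, σ g u = -u) := Iff.rfl

variable [Fact q.Prime] [FiniteDimensional (ZMod q) V] {B : V →ₗ[ZMod q] V →ₗ[ZMod q] ZMod q}
  {σ : H →* Module.End (ZMod q) V} {m : ℕ}

theorem even_half (hm : IsReflPrime q m) : Even (2 ^ (m - 1)) :=
  (Nat.even_pow).2 ⟨even_two, by have := hm.two_le; omega⟩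

/-- The plane of a reflection is the plane of its involution. -/
theorem moved_pow_half (hm : IsReflPrime q m) {y : H} (hy : IsRefl σ m y) :
    moved σ (y ^ 2 ^ (m - 1)) = moved σ y := by
  refine le_antisymm (moved_pow_le σ y _) fun u hu => ?_
  have h := sub_mem_moved σ (y ^ 2 ^ (m - 1)) u
  rw [hy.neg u hu, show -u - u = (-2 : ZMod q) • u by rw [neg_smul, two_smul]; abel] at h
  exact (Submodule.smul_mem_iff _ (neg_ne_zero.2 (two_ne_zero_zmod hm.ne_two))).1 h

theorem map_eq_of_commute (hm : IsReflPrime q m) {y s : H} (hy : IsRefl σ m y)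
    (hs : Commute s (y ^ 2 ^ (m - 1))) : (moved σ y).map (σ s) = moved σ y := by
  rw [← moved_pow_half hm hy, ← moved_conj, hs.eq, mul_inv_cancel_right]

theorem commute_of_map_eq (hm : IsReflPrime q m) (hσ : IsIsoRep σ B) (hinj : Function.Injective σ)
    {y s : H} (hy : IsRefl σ m y) (hs : (moved σ y).map (σ s) = moved σ y) :
    Commute s (y ^ 2 ^ (m - 1)) := by
  have h := hy.pow_eq_of_moved_eq hm hσ hinj (hy.conj s) (by rw [moved_conj]; exact hs)
  rw [conj_pow] at h
  exact mul_inv_eq_iff_eq_mul.1 h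

/-- An involution mapping a nondegenerate plane to itself acts on it as a scalar. -/
theorem mem_scalarOn_of_sq (hm : IsReflPrime q m) (hσ : IsIsoRep σ B) {y g : H} (hy : IsRefl σ m y)
    (hg : ∀ u ∈ moved σ y, σ g u ∈ moved σ y) (hg2 : ∀ u ∈ moved σ y, σ g (σ g u) = u) :
    g ∈ scalarOn σ (moved σ y) := by
  by_contra hne
  rw [mem_scalarOn] at hne
  push Not at hne
  obtain ⟨⟨u₁, hu₁, hu₁'⟩, u₂, hu₂, hu₂'⟩ := hne
  set n := u₁ - σ g u₁ with hn
  set p := u₂ + σ g u₂ with hp
  have hnU : n ∈ moved σ y := sub_mem hu₁ (hg u₁ hu₁)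
  have hpU : p ∈ moved σ y := add_mem hu₂ (hg u₂ hu₂)
  have hn0 : n ≠ 0 := sub_ne_zero.2 (Ne.symm hu₁')
  have hp0 : p ≠ 0 := fun h => hu₂' (eq_neg_of_add_eq_zero_right h)
  have hgn : σ g n = -n := by rw [hn, map_sub, hg2 u₁ hu₁, neg_sub]
  have hgp : σ g p = p := by rw [hp, map_add, hg2 u₂ hu₂, add_comm]
  have h2 := two_ne_zero_zmod (q := q) hm.ne_two
  have hnp : B n p = 0 := by
    have h1 := hσ.iso g n p
    rw [hgn, hgp, map_neg, LinearMap.neg_apply] at h1
    have h3 : (2 : ZMod q) * B n p = 0 := by rw [two_mul]; nth_rw 1 [← h1]; exact neg_add_cancel _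
    exact (mul_eq_zero.1 h3).resolve_left h2
  have hind : LinearIndependent (ZMod q) ![n, p] := by
    rw [LinearIndependent.pair_iff]
    intro a b hab
    have h1 := congrArg (σ g) hab
    rw [map_add, map_smul, map_smul, hgn, hgp, map_zero, smul_neg] at h1
    have ha : (2 : ZMod q) • (a • n) = 0 := by
      have := congrArg₂ (· - ·) hab h1
      simpa [two_smul, sub_eq_add_neg, add_comm, add_left_comm, add_assoc] using this
    have ha0 : a • n = 0 := (smul_eq_zero.1 ha).resolve_left h2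
    rw [ha0, zero_add] at hab
    exact ⟨(smul_eq_zero.1 ha0).resolve_right hn0, (smul_eq_zero.1 hab).resolve_right hp0⟩
  have hspan : Submodule.span (ZMod q) (Set.range ![n, p]) = moved σ y := by
    refine Submodule.eq_of_le_of_finrank_le (Submodule.span_le.2 ?_) ?_
    · rintro _ ⟨i, rfl⟩
      fin_cases i
      · exact hnU
      · exact hpU
    · rw [finrank_span_eq_card hind, hy.dim, Fintype.card_fin]
  refine hp0 (hy.eq_zero_of_mem_orth hm hσ hpU ?_)
  rw [← hspan]
  intro x hx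
  induction hx using Submodule.span_induction with
  | mem x hx =>
    obtain ⟨i, rfl⟩ := hx
    fin_cases i
    · exact hnp
    · exact hσ.alt p
  | zero => simp
  | add x z _ _ hx hz => rw [LinearMap.map_add₂, hx, hz, add_zero]
  | smul c x _ hx => rw [LinearMap.map_smul₂, hx, smul_zero]

/-- An element `b` acting as a scalar on the plane of `y` does not change the involution of `y`. -/
theorem neg_of_scalar_mul (hm : IsReflPrime q m) {y b : H} (hy : IsRefl σ m y)
    (hb : b ∈ scalarOn σ (moved σ y)) : ∀ u ∈ moved σ y, σ ((b * y) ^ 2 ^ (m - 1)) u = -u := by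
  have hyU : ∀ u ∈ moved σ y, σ y u ∈ moved σ y := fun u hu => by
    have := add_mem (sub_mem_moved σ y u) hu
    rwa [sub_add_cancel] at this
  have hpU : ∀ (i : ℕ), ∀ u ∈ moved σ y, σ (y ^ i) u ∈ moved σ y := by
    intro i
    induction i with
    | zero => intro u hu; simpa using hu
    | succ i ih => intro u hu; rw [pow_succ, map_mul, Module.End.mul_apply]; exact ih _ (hyU u hu)
  have key : ∃ c : ZMod q, c * c = 1 ∧ ∀ i : ℕ, ∀ u ∈ moved σ y, σ ((b * y) ^ i) u = c ^ i • σ (y ^ i) u := by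
    obtain ⟨c, hc, hbc⟩ : ∃ c : ZMod q, c * c = 1 ∧ ∀ u ∈ moved σ y, σ b u = c • u := by
      rcases hb with h | h
      · exact ⟨1, one_mul 1, fun u hu => by rw [h u hu, one_smul]⟩
      · exact ⟨-1, by rw [neg_mul_neg, one_mul], fun u hu => by rw [h u hu, neg_one_smul]⟩
    refine ⟨c, hc, fun i => ?_⟩
    induction i with
    | zero => intro u _; simp
    | succ i ih =>
      intro u hu
      rw [pow_succ', map_mul, Module.End.mul_apply, ih u hu, map_smul, map_mul, Module.End.mul_apply,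
        hbc _ (hyU _ (hpU i u hu)), smul_smul, ← pow_succ, pow_succ' y, map_mul, Module.End.mul_apply]
  obtain ⟨c, hc, hkey⟩ := key
  intro u hu
  obtain ⟨r, hr⟩ := even_half hm
  rw [hkey _ u hu, hy.neg u hu, hr, pow_add, ← mul_pow, hc, one_pow, one_smul]

/-- A commuting involution does not change the involution of a reflection. -/
theorem pow_half_eq (hm : IsReflPrime q m) (hσ : IsIsoRep σ B) (hinj : Function.Injective σ)
    {y b : H} (hy : IsRefl σ m y) (hb2 : b * b = 1) (hby : Commute b (y ^ 2 ^ (m - 1)))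
    (hw : (b * y) ^ 2 ^ (m - 1) = 1 ∨ IsRefl σ m (b * y)) :
    (b * y) ^ 2 ^ (m - 1) = y ^ 2 ^ (m - 1) := by
  have hU := map_eq_of_commute hm hy hby
  have hbs : b ∈ scalarOn σ (moved σ y) := mem_scalarOn_of_sq hm hσ hy
    (fun u hu => hU ▸ Submodule.mem_map_of_mem hu)
    (fun u _ => by rw [← Module.End.mul_apply, ← map_mul, hb2, map_one, Module.End.one_apply])
  have hneg := neg_of_scalar_mul hm hy hbs
  have h2 := two_ne_zero_zmod (q := q) hm.ne_two
  rcases hw with h | h
  · exfalso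
    have hbot : moved σ y = ⊥ := eq_bot_iff.2 fun u hu => by
      have h1 := hneg u hu
      rw [h, map_one, Module.End.one_apply] at h1
      have h3 : (2 : ZMod q) • u = 0 := by rw [two_smul]; nth_rw 1 [h1]; exact neg_add_cancel u
      exact (Submodule.mem_bot _).2 ((smul_eq_zero.1 h3).resolve_left h2)
    have := hy.dim
    rw [hbot, finrank_bot] at this
    omega
  · refine hy.pow_eq_of_moved_eq hm hσ hinj h (Submodule.eq_of_le_of_finrank_le ?_ ?_).symm
    · intro u hu
      refine moved_pow_le σ _ (2 ^ (m - 1)) ((Submodule.smul_mem_iff _ (neg_ne_zero.2 h2)).1 ?_)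
      have h1 := sub_mem_moved σ ((b * y) ^ 2 ^ (m - 1)) u
      rwa [hneg u hu, show -u - u = (-2 : ZMod q) • u by rw [neg_smul, two_smul]; abel] at h1
    · rw [h.dim, hy.dim]

/-! ### Moving a root into a 2-group containing `T ∩ O_{2',2}` -/

theorem exists_two_subgroup [Finite H] {T : Subgroup H} (hT : IsPGroup 2 T) {y : H} {a : ℕ}
    (hy : y ^ 2 ^ a = 1) : ∃ o ∈ Cfsg.pPrimeCore 2 H, ∃ T'' : Subgroup H, IsPGroup 2 T'' ∧
      T ⊓ Cfsg.pPrimePCore 2 H ≤ T'' ∧ o * y * o⁻¹ ∈ T'' := by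
  haveI := Fact.mk Nat.prime_two
  set O := Cfsg.pPrimeCore 2 H with hO
  set L := Cfsg.pPrimePCore 2 H with hL
  haveI : L.Normal := PSolv.pPrimePCore_normal 2 H
  obtain ⟨T', hT'⟩ := hT.exists_le_sylow
  set W := (T' : Subgroup H) ⊓ L with hW
  set π := QuotientGroup.mk' O with hπ
  have hLOW : ∀ x ∈ L, x ∈ O ⊔ W := by
    intro x hx
    have hx' : π x ∈ Cfsg.pCore 2 (H ⧸ O) := hx
    obtain ⟨t, ht, hte⟩ : π x ∈ (T' : Subgroup H).map π :=
      PSolv.pCore_le_sylow (T'.mapSurjective (QuotientGroup.mk'_surjective O)) hx'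
    have htW : t ∈ W := ⟨ht, show π t ∈ Cfsg.pCore 2 (H ⧸ O) from hte.symm ▸ hx'⟩
    have h1 : x * t⁻¹ ∈ O := by
      rw [← QuotientGroup.ker_mk' O, MonoidHom.mem_ker, map_mul, map_inv, hte, mul_inv_cancel]
    have := mul_mem (Subgroup.mem_sup_left h1 : x * t⁻¹ ∈ O ⊔ W) (Subgroup.mem_sup_right htW)
    simpa using this
  have hyp : IsPGroup 2 ↥(zpowers y) := by
    obtain ⟨b, -, hb⟩ := (Nat.dvd_prime_pow Nat.prime_two).1 (orderOf_dvd_of_pow_eq_one hy)
    exact IsPGroup.of_card (n := b) (by rw [Nat.card_zpowers]; exact hb)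
  obtain ⟨R, hR⟩ := hyp.exists_le_sylow
  obtain ⟨k, hk⟩ := MulAction.exists_smul_eq H R T'
  have hyk : k * y * k⁻¹ ∈ (T' : Subgroup H) := by
    rw [← hk]
    exact ⟨y, hR (mem_zpowers y), rfl⟩
  obtain ⟨o₀, ho₀, hg⟩ := CharTwo.exists_normalizer_lift (p := 2) (O := O) (Q := W)
    (PSolv.coprime_card_pPrimeCore 2 H) (T'.2.to_le inf_le_left) (y := k)
    fun w hw => hLOW _ ((inferInstance : L.Normal).conj_mem _ hw.2 k)
  set g := o₀ * k with hgdef
  refine ⟨g⁻¹ * k, ?_, (T' : Subgroup H).map (MulAut.conj g⁻¹).toMonoidHom, T'.2.map _, ?_, ?_⟩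
  · have := (inferInstance : O.Normal).conj_mem _ (inv_mem ho₀) k⁻¹
    simpa [hgdef, mul_assoc] using this
  · intro w hw
    have hwW : w ∈ W := ⟨hT' hw.1, hw.2⟩
    refine ⟨g * w * g⁻¹, ((Subgroup.mem_normalizer_iff.1 hg w).1 hwW).1, ?_⟩
    simp [mul_assoc]
  · refine ⟨k * y * k⁻¹, hyk, ?_⟩
    simp [mul_assoc]

/-- The roots of an involution of `T ∩ O_{2',2}` can be moved into such a 2-group. -/
theorem exists_root_mem [Finite H] {T : Subgroup H} (hT : IsPGroup 2 T) {y3 : H}
    (hy3 : IsRefl σ m y3) {a : ℕ} (hy : y3 ^ 2 ^ a = 1)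
    (haT : y3 ^ 2 ^ (m - 1) ∈ T ⊓ Cfsg.pPrimePCore 2 H) :
    ∃ (T'' : Subgroup H) (y' : H), IsPGroup 2 T'' ∧ T ⊓ Cfsg.pPrimePCore 2 H ≤ T'' ∧ y' ∈ T'' ∧
      IsRefl σ m y' ∧ y' ^ 2 ^ (m - 1) = y3 ^ 2 ^ (m - 1) := by
  haveI := Fact.mk Nat.prime_two
  obtain ⟨o, ho, T'', hT'', hle, hmem⟩ := exists_two_subgroup hT hy
  refine ⟨T'', o * y3 * o⁻¹, hT'', hle, hmem, hy3.conj o, ?_⟩
  set t := y3 ^ 2 ^ (m - 1) with ht
  have h1 : (o * y3 * o⁻¹) ^ 2 ^ (m - 1) * t⁻¹ ∈ T'' := mul_mem (pow_mem hmem _) (inv_mem (hle haT))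
  have h2 : (o * y3 * o⁻¹) ^ 2 ^ (m - 1) * t⁻¹ ∈ Cfsg.pPrimeCore 2 H := by
    rw [conj_pow, ← ht, show o * t * o⁻¹ * t⁻¹ = o * (t * o⁻¹ * t⁻¹) by group]
    exact mul_mem ho ((inferInstance : (Cfsg.pPrimeCore 2 H).Normal).conj_mem _ (inv_mem ho) t)
  exact mul_inv_eq_one.1 (LocalP.eq_one_of_mem_isPGroup hT'' h1
    (Element.coprime_orderOf_of_mem (PSolv.coprime_card_pPrimeCore 2 H) h2))

theorem finrank_moved_mul_inv_le {w y : H} (hw : IsRefl σ m w) (hy : IsRefl σ m y) :
    finrank (ZMod q) ↥(moved σ (w * y⁻¹)) ≤ 4 := by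
  refine (Submodule.finrank_mono ((moved_mul_le σ w y⁻¹).trans
    (sup_le_sup_left (moved_inv_le σ y) _))).trans ?_
  have := Submodule.finrank_sup_add_finrank_inf_eq (moved σ w) (moved σ y)
  rw [hw.dim, hy.dim] at this
  omega

/-- An element of `T ∩ O_{2',2}` moving only two planes has a power commuting with the involutions. -/
theorem commute_sq_root [Finite H] (hm : IsReflPrime q m) (hσ : IsIsoRep σ B)
    (hinj : Function.Injective σ) {T : Subgroup H} (hT : IsPGroup 2 T) {u : H}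
    (hu : u ∈ T ⊓ Cfsg.pPrimePCore 2 H) (hdim : finrank (ZMod q) ↥(moved σ u) ≤ 4) {y3 : H}
    (hy3 : IsRefl σ m y3) {a : ℕ} (hy : y3 ^ 2 ^ a = 1)
    (haT : y3 ^ 2 ^ (m - 1) ∈ T ⊓ Cfsg.pPrimePCore 2 H) :
    Commute (u ^ 2) (y3 ^ 2 ^ (m - 1)) := by
  obtain ⟨T'', y', hT'', hle, hy'T, hy', hy'eq⟩ := exists_root_mem hT hy3 hy haT
  rw [← hy'eq]
  exact commute_of_map_eq hm hσ hinj hy' (map_sq_eq hm hσ hT'' (hle hu) hy'T hy' hdim)

/-- **Two reflections**: the product of their involutions commutes with the involutions. -/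
theorem commute_pow_half_mul [Finite H] (hm : IsReflPrime q m) (hσ : IsIsoRep σ B)
    (hinj : Function.Injective σ) {T : Subgroup H} (hT : IsPGroup 2 T) {w y : H} (hwT : w ∈ T)
    (hyT : y ∈ T) (hw : IsRefl σ m w) (hy : IsRefl σ m y) (hy2 : y ^ 2 ^ m = 1)
    (hL : w * y⁻¹ ∈ Cfsg.pPrimePCore 2 H) {y3 : H} (hy3 : IsRefl σ m y3) {a : ℕ}
    (hy3a : y3 ^ 2 ^ a = 1) (haT : y3 ^ 2 ^ (m - 1) ∈ T ⊓ Cfsg.pPrimePCore 2 H) :
    Commute (w ^ 2 ^ (m - 1) * y ^ 2 ^ (m - 1)) (y3 ^ 2 ^ (m - 1)) := by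
  have hh : 2 ^ (m - 1) + 2 ^ (m - 1) = 2 ^ m := by
    rw [← Nat.two_mul, ← pow_succ', Nat.sub_add_cancel (by have := hm.two_le; omega)]
  have hinv : (y ^ 2 ^ (m - 1))⁻¹ = y ^ 2 ^ (m - 1) :=
    inv_eq_of_mul_eq_one_right (by rw [← pow_add, hh, hy2])
  rcases plane_dichotomy hm hσ _ T le_rfl hT y hyT w hwT hy hw with h | h
  · rw [hy.pow_eq_of_moved_eq hm hσ hinj hw h, ← pow_add, hh, hy2]
    exact Commute.one_left _
  have hc : Commute w y⁻¹ := (commute_of_perp hσ hinj h).symm.inv_right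
  have he : w ^ 2 ^ (m - 1) * y ^ 2 ^ (m - 1) = (w * y⁻¹) ^ 2 ^ (m - 1) := by
    rw [hc.mul_pow, inv_pow, hinv]
  rw [he]
  obtain ⟨j, hj⟩ := Nat.exists_eq_add_of_le hm.two_le
  rw [show (w * y⁻¹) ^ 2 ^ (m - 1) = ((w * y⁻¹) ^ 2) ^ 2 ^ j by
    rw [← pow_mul, ← pow_succ', hj, show 2 + j - 1 = j + 1 by omega]]
  exact (commute_sq_root hm hσ hinj hT ⟨T.mul_mem hwT (T.inv_mem hyT), hL⟩
    (finrank_moved_mul_inv_le hw hy) hy3 hy3a haT).pow_left _

/-! ### A reflection times involutions of the normal 2-subgroup -/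

theorem fixes_of_perp (hσ : IsIsoRep σ B) {y : H} {U : Submodule (ZMod q) V}
    (h : Perp B (moved σ y) U) : ∀ u ∈ U, σ y u = u :=
  fun u hu => (hσ.fixed_iff y u).2 fun v hv => h v hv u hu

theorem apply_pow_of_fix {y : H} {u : V} (h : σ y u = u) (i : ℕ) : σ (y ^ i) u = u := by
  induction i with
  | zero => simp
  | succ i ih => rw [pow_succ, map_mul, Module.End.mul_apply, h, ih]

/-- For `m ≥ 3` the involutions map the plane of a reflection of `T` to itself. -/
theorem map_moved_of_three_le [Finite H] (hm : IsReflPrime q m) (hm3 : 3 ≤ m) (hσ : IsIsoRep σ B)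
    (hinj : Function.Injective σ) {T : Subgroup H} (hT : IsPGroup 2 T) {w : H} (hwT : w ∈ T)
    (hw : IsRefl σ m w) {y3 : H} (hy3 : IsRefl σ m y3) {a : ℕ} (hy3a : y3 ^ 2 ^ a = 1)
    (haT : y3 ^ 2 ^ (m - 1) ∈ T ⊓ Cfsg.pPrimePCore 2 H)
    (ha2 : y3 ^ 2 ^ (m - 1) * y3 ^ 2 ^ (m - 1) = 1) :
    (moved σ w).map (σ (y3 ^ 2 ^ (m - 1))) = moved σ w := by
  haveI : (Cfsg.pPrimePCore 2 H).Normal := PSolv.pPrimePCore_normal 2 H
  set t := y3 ^ 2 ^ (m - 1) with ht
  set y1 := t * w * t⁻¹ with hy1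
  have hy1T : y1 ∈ T := mul_mem (mul_mem haT.1 hwT) (inv_mem haT.1)
  rcases plane_dichotomy hm hσ _ T le_rfl hT w hwT y1 hy1T hw (hw.conj t) with h | h
  · rw [moved_conj] at h; exact h
  exfalso
  have hc : Commute y1 w := (commute_of_perp hσ hinj h).symm
  set u := y1 * w⁻¹ with hu
  have huTL : u ∈ T ⊓ Cfsg.pPrimePCore 2 H := by
    refine ⟨T.mul_mem hy1T (T.inv_mem hwT), ?_⟩
    rw [hu, hy1, show t * w * t⁻¹ * w⁻¹ = t * (w * t⁻¹ * w⁻¹) by group]
    exact mul_mem haT.2 ((inferInstance : (Cfsg.pPrimePCore 2 H).Normal).conj_mem _ (inv_mem haT.2) w)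
  have hsq := commute_sq_root hm hσ hinj hT huTL (finrank_moved_mul_inv_le (hw.conj t) hw) hy3 hy3a haT
  rw [← ht] at hsq
  have ht' : t⁻¹ = t := inv_eq_of_mul_eq_one_right ha2
  have htu : t * u * t⁻¹ = u⁻¹ := by
    have h1 : u⁻¹ = w * y1⁻¹ := by rw [hu, mul_inv_rev, inv_inv]
    rw [h1, hu, hy1]
    simp only [mul_inv_rev, ht', mul_assoc]
    simp only [← mul_assoc t t, ha2, one_mul]
  have hu4 : (u ^ 2) * (u ^ 2) = 1 := by
    have h1 : t * u ^ 2 * t⁻¹ = (u ^ 2)⁻¹ := by rw [← conj_pow, htu, inv_pow]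
    rw [← hsq.eq, mul_inv_cancel_right] at h1
    nth_rw 1 [h1]
    exact inv_mul_cancel _
  have h4 : w ^ 4 = y1 ^ 4 := by
    rw [← pow_add] at hu4
    rw [hu, hc.inv_right.mul_pow, inv_pow, mul_inv_eq_one] at hu4
    exact hu4.symm
  have hfix := fixes_of_perp hσ (Perp.symm hσ.alt h)
  obtain ⟨j, hj⟩ : ∃ j, 2 ^ (m - 1) = 4 * j := ⟨2 ^ (m - 3), by
    rw [show (4 : ℕ) = 2 ^ 2 from rfl, ← pow_add]; congr 1; omega⟩
  have hbot : moved σ w = ⊥ := eq_bot_iff.2 fun v hv => by
    refine (Submodule.mem_bot _).2 (hw.eq_zero_of_mem_of_fixed hm hv ?_)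
    rw [hj, pow_mul, h4, ← pow_mul]
    exact apply_pow_of_fix (hfix v hv) _
  have := hw.dim
  rw [hbot, finrank_bot] at this
  omega

/-- For `q = 3` a 2-element stabilising a nondegenerate plane has square `± 1` on it. -/
theorem sq_mem_scalarOn_three (hm : IsReflPrime q m) (hm2 : m = 2) (hσ : IsIsoRep σ B) {y g : H}
    (hy : IsRefl σ m y) (hg : ∀ u ∈ moved σ y, σ g u ∈ moved σ y) {k : ℕ} (hk : g ^ 2 ^ k = 1) :
    g ^ 2 ∈ scalarOn σ (moved σ y) := by
  have hq : q = 3 := by have := hm.eq; subst hm2; omega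
  subst hq
  have h4 : ∀ u ∈ moved σ y, σ (g ^ 4) u = u := by
    intro u hu
    by_cases hu0 : u = 0
    · rw [hu0, map_zero]
    by_cases hdep : ∃ c : ZMod 3, σ g u = c • u
    · obtain ⟨c, hc⟩ := hdep
      have hp : ∀ i : ℕ, σ (g ^ i) u = c ^ i • u := by
        intro i
        induction i with
        | zero => simp
        | succ i ih => rw [pow_succ, map_mul, Module.End.mul_apply, hc, map_smul, ih, smul_smul, pow_succ']
      have hc0 : c ≠ 0 := by
        rintro rfl
        rw [zero_smul] at hc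
        have := apply_inv_apply σ g u
        rw [hc, map_zero] at this
        exact hu0 this.symm
      rw [hp 4, show (4 : ℕ) = 2 * 2 from rfl, pow_mul, show c ^ 2 = 1 from ZMod.pow_card_sub_one_eq_one hc0,
        one_pow, one_smul]
    push Not at hdep
    set f := σ g u with hf
    have hfU : f ∈ moved σ y := hg u hu
    have hind : LinearIndependent (ZMod 3) ![u, f] :=
      (LinearIndependent.pair_iff' hu0).2 fun c hc => hdep c hc.symm
    have hspan : Submodule.span (ZMod 3) (Set.range ![u, f]) = moved σ y := by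
      refine Submodule.eq_of_le_of_finrank_le (Submodule.span_le.2 ?_) ?_
      · rintro _ ⟨i, rfl⟩
        fin_cases i
        · exact hu
        · exact hfU
      · rw [finrank_span_eq_card hind, hy.dim, Fintype.card_fin]
    have hfg : σ g f ∈ Submodule.span (ZMod 3) (Set.range ![u, f]) := hspan.symm ▸ hg f hfU
    rw [Submodule.mem_span_range_iff_exists_fun] at hfg
    obtain ⟨c, hc⟩ := hfg
    rw [Fin.sum_univ_two] at hc
    simp only [Matrix.cons_val_zero, Matrix.cons_val_one, Matrix.cons_val_fin_one] at hc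
    set a := c 0
    set b := c 1
    have hne : B u f ≠ 0 := by
      intro h0
      refine hu0 (hy.eq_zero_of_mem_orth hm hσ hu ?_)
      rw [← hspan]
      intro x hx
      induction hx using Submodule.span_induction with
      | mem x hx =>
        obtain ⟨i, rfl⟩ := hx
        fin_cases i
        · exact hσ.alt u
        · show B f u = 0
          rw [alt_swap hσ.alt, h0, neg_zero]
      | zero => simp
      | add x z _ _ hx hz => rw [LinearMap.map_add₂, hx, hz, add_zero]
      | smul c x _ hx => rw [LinearMap.map_smul₂, hx, smul_zero]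
    have ha : a = -1 := by
      have h1 := hσ.iso g u f
      rw [← hf, ← hc] at h1
      simp only [map_add, map_smul, hσ.alt, alt_swap hσ.alt f u,
        smul_eq_mul] at h1
      have : (a + 1) * B u f = 0 := by linear_combination -h1
      exact eq_neg_of_add_eq_zero_left ((mul_eq_zero.1 this).resolve_right hne)
    have hp : ∀ i : ℕ, σ (g ^ (i + 1)) u = σ g (σ (g ^ i) u) := fun i => by
      rw [pow_succ', map_mul, Module.End.mul_apply]
    have e1 : σ (g ^ 1) u = f := by rw [pow_one]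
    have e2 : σ (g ^ 2) u = -u + b • f := by rw [hp, e1, ← hc, ha, neg_one_smul]
    by_cases hb : b = 0
    · rw [hb, zero_smul, add_zero] at e2
      rw [show (4 : ℕ) = 2 + 2 from rfl, pow_add, map_mul, Module.End.mul_apply, e2, map_neg, e2, neg_neg]
    have hbb : b * b = 1 := by rw [← pow_two]; exact ZMod.pow_card_sub_one_eq_one hb
    have e3 : σ (g ^ 3) u = -(b • u) := by
      rw [hp, e2, map_add, map_neg, map_smul, ← hf, ← hc, ha, neg_one_smul, smul_add, smul_neg, smul_smul,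
        hbb, one_smul]
      abel
    have e6 : σ (g ^ 6) u = u := by
      rw [show (6 : ℕ) = 3 + 3 from rfl, pow_add, map_mul, Module.End.mul_apply, e3, map_neg, map_smul,
        e3, smul_neg, neg_neg, smul_smul, hbb, one_smul]
    have hper : ∀ r s : ℕ, σ (g ^ (6 * r + s)) u = σ (g ^ s) u := by
      intro r s
      induction r with
      | zero => simp
      | succ r ih =>
        rw [show 6 * (r + 1) + s = (6 * r + s) + 6 by ring, pow_add, map_mul, Module.End.mul_apply, e6, ih]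
    have h6 : ∀ j : ℕ, ∃ r, 2 ^ (j + 1) = 6 * r + 2 ∨ 2 ^ (j + 1) = 6 * r + 4 := by
      intro j
      induction j with
      | zero => exact ⟨0, Or.inl rfl⟩
      | succ j ih =>
        obtain ⟨r, hr | hr⟩ := ih
        · exact ⟨2 * r, Or.inr (by rw [pow_succ, hr]; ring)⟩
        · exact ⟨2 * r + 1, Or.inl (by rw [pow_succ, hr]; ring)⟩
    rcases k with _ | j
    · rw [pow_zero, pow_one] at hk
      rw [hk, one_pow, map_one, Module.End.one_apply]
    · obtain ⟨r, hr | hr⟩ := h6 j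
      · have h2 : σ (g ^ 2) u = u := by rw [← hper r 2, ← hr, hk, map_one, Module.End.one_apply]
        rw [show (4 : ℕ) = 2 + 2 from rfl, pow_add, map_mul, Module.End.mul_apply, h2, h2]
      · rw [← hper r 4, ← hr, hk, map_one, Module.End.one_apply]
  refine mem_scalarOn_of_sq hm hσ hy (fun u hu => ?_) fun u hu => ?_
  · rw [pow_two, map_mul, Module.End.mul_apply]; exact hg _ (hg u hu)
  · rw [← Module.End.mul_apply, ← map_mul, ← pow_add]; exact h4 u hu

/-- The transfer: for `q = 3` a 2-group has a character killing involutions but not a reflection. -/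
theorem exists_character_three [Finite H] (hm : IsReflPrime q m) (hm2 : m = 2) (hσ : IsIsoRep σ B)
    {T : Subgroup H} (hT : IsPGroup 2 T) {w : H} (hwT : w ∈ T) (hw : IsRefl σ m w) :
    ∃ ψ : T →* Multiplicative (ZMod 2), (∀ e : T, e * e = 1 → ψ e = 1) ∧ ψ ⟨w, hwT⟩ ≠ 1 := by
  classical
  haveI := Fact.mk Nat.prime_two
  set U := moved σ w with hU
  -- the stabilizer of the plane
  let Ts : Subgroup T :=
    { carrier := {g | U.map (σ (g : H)) = U}
      one_mem' := by simp [Module.End.one_eq_id]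
      mul_mem' := fun {a b} (ha : U.map (σ (a : H)) = U) (hb : U.map (σ (b : H)) = U) => by
        show U.map (σ ((a : H) * b)) = U
        rw [map_mul, Module.End.mul_eq_comp, Submodule.map_comp, hb, ha]
      inv_mem' := fun {a} (ha : U.map (σ (a : H)) = U) => by
        show U.map (σ ((a : H)⁻¹)) = U
        conv_lhs => rw [← ha]
        rw [← Submodule.map_comp, ← Module.End.mul_eq_comp, ← map_mul, inv_mul_cancel, map_one,
          Module.End.one_eq_id, Submodule.map_id] }
  have hTs : ∀ g : Ts, ∀ u ∈ U, σ ((g : T) : H) u ∈ U := fun g u hu =>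
    (g.2 : U.map (σ ((g : T) : H)) = U) ▸ Submodule.mem_map_of_mem hu
  have hwTs : (⟨w, hwT⟩ : T) ∈ Ts := by
    show U.map (σ w) = U
    rw [hU, ← moved_conj, mul_inv_cancel_right]
  let wS : Ts := ⟨⟨w, hwT⟩, hwTs⟩
  have hTsp : IsPGroup 2 Ts := hT.to_subgroup Ts
  let Nsc : Subgroup Ts := (scalarOn σ U).comap (T.subtype.comp Ts.subtype)
  have hsq : ∀ g : Ts, g ^ 2 ∈ Nsc := fun g => by
    obtain ⟨k, hk⟩ := hTsp g
    show ((g ^ 2 : Ts) : T).1 ∈ scalarOn σ U
    rw [SubmonoidClass.coe_pow, SubmonoidClass.coe_pow]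
    refine sq_mem_scalarOn_three hm hm2 hσ hw (hTs g) (k := k) ?_
    have := congrArg (fun z : Ts => ((z : T) : H)) hk
    simpa using this
  have hcomm : commutator Ts ≤ Nsc := by
    refine (PGroup.commutator_le_frattini hTsp).trans ?_
    rw [PGroup.frattini_eq_closure_sq hTsp, closure_le]
    rintro _ ⟨g, rfl⟩
    exact hsq g
  have hwN : wS ∉ Nsc := by
    intro h
    have hev : ∀ c : ZMod q, (∀ u ∈ U, σ w u = c • u) → False := fun c hc => by
      have hbot : U = ⊥ := eq_bot_iff.2 fun u hu =>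
        (Submodule.mem_bot _).2 (hw.eq_zero_of_eigen hm hu (hc u hu))
      have := hw.dim
      rw [← hU, hbot, finrank_bot] at this
      omega
    rcases (h : w ∈ scalarOn σ U) with h | h
    · exact hev 1 fun u hu => (h u hu).trans (one_smul _ u).symm
    · exact hev (-1) fun u hu => (h u hu).trans (neg_one_smul _ u).symm
  obtain ⟨Mx, hMx, hNMx, hwMx⟩ := PGroup.exists_isCoatom_not_mem Nat.prime_two hcomm hsq hwN
  have hidx := PGroup.index_of_isCoatom hTsp hMx
  let φ : Ts →* Multiplicative (ZMod 2) :=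
    { toFun := fun g => if g ∈ Mx then 1 else Multiplicative.ofAdd 1
      map_one' := if_pos (one_mem _)
      map_mul' := fun a b => by
        by_cases ha : a ∈ Mx <;> by_cases hb : b ∈ Mx <;>
          simp only [Subgroup.mul_mem_iff_of_index_two hidx, ha, hb, if_true, if_false, one_mul, mul_one,
            iff_true, iff_false, not_true_eq_false]
        · rw [← ofAdd_add]; rfl }
  have hφN : ∀ g ∈ Nsc, φ g = 1 := fun g hg => if_pos (hNMx hg)
  have hφinv : ∀ g : Ts, g * g = 1 → φ g = 1 := fun g hg => hφN g <|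
    mem_scalarOn_of_sq hm hσ hw (hTs g) fun u _ => by
      have := congrArg (fun z : Ts => ((z : T) : H)) hg
      simp only [Subgroup.coe_mul, OneMemClass.coe_one] at this
      rw [← Module.End.mul_apply, ← map_mul]
      show σ (((g : T) : H) * ((g : T) : H)) u = u
      rw [this, map_one, Module.End.one_apply]
  have hφw : φ wS ≠ 1 := by
    show (if wS ∈ Mx then _ else _) ≠ _
    rw [if_neg hwMx]
    exact fun h => one_ne_zero (α := ZMod 2) (congrArg Multiplicative.toAdd h)
  haveI : Finite T := inferInstance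
  haveI : Ts.FiniteIndex := inferInstance
  refine ⟨MonoidHom.transfer φ, fun e he => ?_, ?_⟩
  · haveI : Fintype (Quotient (MulAction.orbitRel (zpowers e) (T ⧸ Ts))) := Fintype.ofFinite _
    rw [MonoidHom.transfer_eq_prod_quotient_orbitRel_zpowers_quot]
    refine Finset.prod_eq_one fun c _ => hφinv _ (Subtype.ext ?_)
    have hm' : ∀ n : ℕ, e ^ n * e ^ n = 1 := fun n => by
      rw [← (Commute.refl e).mul_pow, he, one_pow]
    simp only [Subgroup.coe_mul, OneMemClass.coe_one]
    calc c.out.out⁻¹ * e ^ Function.minimalPeriod (e • ·) c.out * c.out.out *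
          (c.out.out⁻¹ * e ^ Function.minimalPeriod (e • ·) c.out * c.out.out)
        = c.out.out⁻¹ * (e ^ Function.minimalPeriod (e • ·) c.out *
            e ^ Function.minimalPeriod (e • ·) c.out) * c.out.out := by group
      _ = 1 := by rw [hm', mul_one, inv_mul_cancel]
  · set g : T := ⟨w, hwT⟩ with hg
    haveI : Fintype (Quotient (MulAction.orbitRel (zpowers g) (T ⧸ Ts))) := Fintype.ofFinite _
    rw [MonoidHom.transfer_eq_prod_quotient_orbitRel_zpowers_quot]
    -- outside the stabilizer the conjugates of `w` are trivial on the plane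
    have hout : ∀ k : T, k ∉ Ts → k⁻¹ * g * k ∈ Ts ∧
        ∀ u ∈ U, σ ((k⁻¹ * g * k : T) : H) u = u := by
      intro k hk
      have hne : moved σ ((k : H)⁻¹ * w * (k : H)⁻¹⁻¹) ≠ U := by
        rw [moved_conj]
        intro h
        refine hk ?_
        show U.map (σ (k : H)) = U
        conv_lhs => rw [← h]
        rw [← Submodule.map_comp, ← Module.End.mul_eq_comp, ← map_mul, mul_inv_cancel, map_one,
          Module.End.one_eq_id, Submodule.map_id]
      have hperp := (plane_dichotomy hm hσ _ T le_rfl hT w hwT ((k : H)⁻¹ * w * (k : H)⁻¹⁻¹)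
        (mul_mem (mul_mem (inv_mem k.2) hwT) (inv_mem (inv_mem k.2))) hw (hw.conj _)).resolve_left hne
      have hfix := fixes_of_perp hσ (Perp.symm hσ.alt hperp)
      rw [inv_inv] at hfix
      refine ⟨?_, hfix⟩
      show U.map (σ ((k⁻¹ * g * k : T) : H)) = U
      refine le_antisymm ?_ fun u hu => ⟨u, hu, hfix u hu⟩
      rintro _ ⟨u, hu, rfl⟩
      rw [show σ ((k⁻¹ * g * k : T) : H) u = u from hfix u hu]
      exact hu
    have hfixed : ∀ c : T ⧸ Ts, g • c = c := by
      intro c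
      induction c using QuotientGroup.induction_on with
      | H k =>
        rw [MulAction.Quotient.smul_mk, smul_eq_mul]
        refine (QuotientGroup.eq.2 ?_).symm
        rw [show k⁻¹ * (g * k) = k⁻¹ * g * k by group]
        by_cases hk : k ∈ Ts
        · exact mul_mem (mul_mem (inv_mem hk) hwTs) hk
        · exact (hout k hk).1
    have hper : ∀ c : T ⧸ Ts, Function.minimalPeriod (g • ·) c = 1 := fun c =>
      Function.minimalPeriod_eq_one_iff_isFixedPt.2 (hfixed c)
    set c0 : Quotient (MulAction.orbitRel (zpowers g) (T ⧸ Ts)) := Quotient.mk'' ((1 : T) : T ⧸ Ts)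
      with hc0
    have hc0out : c0.out.out ∈ Ts := by
      have h1 : c0.out ∈ MulAction.orbit (zpowers g) ((1 : T) : T ⧸ Ts) :=
        Quotient.exact (s := MulAction.orbitRel (zpowers g) (T ⧸ Ts)) (Quotient.out_eq c0)
      obtain ⟨⟨z, hz⟩, hz'⟩ := h1
      have hz1 : z ∈ MulAction.stabilizer T ((1 : T) : T ⧸ Ts) :=
        zpowers_le.2 (MulAction.mem_stabilizer_iff.2 (hfixed _)) hz
      have h2 : c0.out = ((1 : T) : T ⧸ Ts) := by
        rw [← hz']
        exact MulAction.mem_stabilizer_iff.1 hz1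
      rw [← QuotientGroup.out_eq' c0.out] at h2
      have := QuotientGroup.eq.1 h2
      rwa [mul_one, inv_mem_iff] at this
    rw [Finset.prod_eq_single c0 ?_ (fun h => absurd (Finset.mem_univ _) h)]
    · have e1 : (⟨c0.out.out⁻¹ * g ^ Function.minimalPeriod (g • ·) c0.out * c0.out.out,
          QuotientGroup.out_conj_pow_minimalPeriod_mem Ts g c0.out⟩ : Ts)
          = (⟨_, hc0out⟩ : Ts)⁻¹ * wS * ⟨_, hc0out⟩ := Subtype.ext (by
        simp only [hper, pow_one, Subgroup.coe_mul, InvMemClass.coe_inv]; rfl)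
      rw [e1, map_mul, map_mul, map_inv, mul_right_comm, inv_mul_cancel, one_mul]
      exact hφw
    · intro c _ hc
      have hk : c.out.out ∉ Ts := by
        intro h
        refine hc ?_
        rw [hc0, ← Quotient.out_eq c]
        refine congrArg (Quotient.mk (MulAction.orbitRel (zpowers g) (T ⧸ Ts))) ?_
        rw [← QuotientGroup.out_eq' c.out]
        exact QuotientGroup.eq.2 (by rw [mul_one, inv_mem_iff]; exact h)
      refine hφN _ (Or.inl fun u hu => ?_)
      show σ ((c.out.out⁻¹ * g ^ Function.minimalPeriod (g • ·) c.out * c.out.out : T) : H) u = u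
      rw [hper, pow_one]
      exact (hout _ hk).2 u hu

/-- **A single reflection**: it cannot be removed by involutions of `T ∩ O_{2',2}`. -/
theorem false_of_one_sided [Finite H] (hm : IsReflPrime q m) (hσ : IsIsoRep σ B)
    (hinj : Function.Injective σ) {T : Subgroup H} (hT : IsPGroup 2 T) {w : H} (hwT : w ∈ T)
    (hw : IsRefl σ m w) {A : Set H} (hA : ∀ t ∈ A, t ∈ T ⊓ Cfsg.pPrimePCore 2 H ∧ t * t = 1 ∧
      (t = 1 ∨ ∃ y3 a, IsRefl σ m y3 ∧ y3 ^ 2 ^ a = 1 ∧ t = y3 ^ 2 ^ (m - 1))) {b : H}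
    (hb : b ∈ closure A) (hy : (b⁻¹ * w) ^ 2 ^ (m - 1) = 1) : False := by
  by_cases hm3 : 3 ≤ m
  · have hsc : closure A ≤ scalarOn σ (moved σ w) := (closure_le _).2 fun t ht => by
      obtain ⟨htT, ht2, ht3⟩ := hA t ht
      rcases ht3 with rfl | ⟨y3, a, hy3, hy3a, rfl⟩
      · exact one_mem _
      have hmap := map_moved_of_three_le hm hm3 hσ hinj hT hwT hw hy3 hy3a htT ht2
      exact mem_scalarOn_of_sq hm hσ hw (fun u hu => hmap ▸ Submodule.mem_map_of_mem hu)
        fun u _ => by rw [← Module.End.mul_apply, ← map_mul, ht2, map_one, Module.End.one_apply]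
    have hneg := neg_of_scalar_mul hm hw (inv_mem (hsc hb))
    have hbot : moved σ w = ⊥ := eq_bot_iff.2 fun u hu => by
      refine (Submodule.mem_bot _).2 (hw.eq_zero_of_mem_of_fixed hm hu ?_)
      have h1 := hneg u hu
      rw [hy, map_one, Module.End.one_apply] at h1
      rw [hw.neg u hu, ← h1]
    have := hw.dim
    rw [hbot, finrank_bot] at this
    omega
  · have hm2 : m = 2 := by have := hm.two_le; omega
    obtain ⟨ψ, hψ, hψw⟩ := exists_character_three hm hm2 hσ hT hwT hw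
    have hbψ : ∃ hbT : b ∈ T, ψ ⟨b, hbT⟩ = 1 := by
      have hle : closure A ≤ ψ.ker.map T.subtype := (closure_le _).2 fun t ht =>
        ⟨⟨t, (hA t ht).1.1⟩, hψ _ (Subtype.ext (hA t ht).2.1), rfl⟩
      obtain ⟨b', hb', rfl⟩ := hle hb
      exact ⟨b'.2, hb'⟩
    obtain ⟨hbT, hb1⟩ := hbψ
    refine hψw ?_
    have h1 : ψ (⟨b, hbT⟩⁻¹ * ⟨w, hwT⟩) = 1 := hψ _ (Subtype.ext (by
      rw [hm2, show 2 ^ (2 - 1) = 2 from rfl, pow_two] at hy
      simpa using hy))
    rwa [map_mul, map_inv, hb1, inv_one, one_mul] at h1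

end Cfsg.Agent.TwoLen
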