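import Cfsg.Agent.TwoLen.Detect
import Cfsg.Agent.TwoLen.Plane

/-!
# The two identities between `h`-th powers

`S` is a 2-subgroup of a solvable linear group in characteristic 2 with `O_2 = 1` and without free
summands of length `2 h`, `h = 2 ^ (e - 1)`.  For `x ∈ S` and `h`-th powers `t, t'` in `S` the element
`(t x) ^ h x ^ (-h)` commutes with `t'`, and the involutions `z` of the group generated by the powers
which commute with all of them satisfy `(z x) ^ h = x ^ h`.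
-/

set_option autoImplicit false
set_option linter.unusedSectionVars false
set_option linter.style.haveILetI false

namespace Cfsg.Agent.TwoLen

open scoped commutatorElement
open Module LinearMap Subgroup Cfsg Cfsg.Agent.Gross

/-! ### Powers in a 2-subgroup -/

section powers

variable {X : Type*} [Group X]

/-- The `2 ^ (e - 1)`-th powers of 2-elements which lie in `S`. -/
def tset (S : Subgroup X) (e : ℕ) : Set X :=
  {t | t ∈ S ∧ ∃ x, (∃ i, orderOf x = 2 ^ i) ∧ x ^ 2 ^ (e - 1) = t}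

/-- The subgroup generated by the powers. -/
def esub (S : Subgroup X) (e : ℕ) : Subgroup X := closure (tset S e)

variable {S : Subgroup X} {e : ℕ}

theorem esub_le : esub S e ≤ S := (closure_le _).2 fun _ ht => ht.1

theorem mem_esub {t : X} (ht : t ∈ tset S e) : t ∈ esub S e := subset_closure ht

theorem exists_orderOf_eq (hS : IsPGroup 2 S) {x : X} (hx : x ∈ S) : ∃ i, orderOf x = 2 ^ i := by
  haveI := Fact.mk Nat.prime_two
  obtain ⟨k, hk⟩ := hS ⟨x, hx⟩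
  have hk' : x ^ 2 ^ k = 1 := by simpa using congrArg Subtype.val hk
  obtain ⟨i, -, hi⟩ := (Nat.dvd_prime_pow Nat.prime_two).1 (orderOf_dvd_of_pow_eq_one hk')
  exact ⟨i, hi⟩

theorem pow_mem_tset (hS : IsPGroup 2 S) {x : X} (hx : x ∈ S) : x ^ 2 ^ (e - 1) ∈ tset S e :=
  ⟨pow_mem hx _, x, exists_orderOf_eq hS hx, rfl⟩

theorem conj_mem_tset {s t : X} (hs : s ∈ S) (ht : t ∈ tset S e) : s * t * s⁻¹ ∈ tset S e := by
  obtain ⟨htS, x, ⟨i, hi⟩, rfl⟩ := ht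
  refine ⟨mul_mem (mul_mem hs htS) (inv_mem hs), s * x * s⁻¹, ⟨i, ?_⟩, conj_pow⟩
  rw [← hi]
  exact orderOf_injective (MulAut.conj s).toMonoidHom (MulAut.conj s).injective x

theorem conj_mem_esub {s t : X} (hs : s ∈ S) (ht : t ∈ esub S e) : s * t * s⁻¹ ∈ esub S e := by
  have h : esub S e ≤ (esub S e).comap (MulAut.conj s).toMonoidHom :=
    (closure_le _).2 fun _ hu => mem_esub (conj_mem_tset hs hu)
  exact h ht

/-- `(t x) ^ n x ^ (-n)` is a product of conjugates of `t`. -/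
theorem mul_pow_mul_inv_mem {N : Subgroup X} {x t : X}
    (hN : ∀ n : ℕ, x ^ n * t * (x ^ n)⁻¹ ∈ N) (n : ℕ) : (t * x) ^ n * (x ^ n)⁻¹ ∈ N := by
  induction n with
  | zero => simp
  | succ n ih =>
    rw [show (t * x) ^ (n + 1) * (x ^ (n + 1))⁻¹ = (t * x) ^ n * (x ^ n)⁻¹ * (x ^ n * t * (x ^ n)⁻¹) by
      rw [pow_succ, pow_succ]; group]
    exact mul_mem ih (hN n)

theorem commute_esub {z : X} (hz : ∀ t ∈ tset S e, Commute z t) {u : X} (hu : u ∈ esub S e) :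
    Commute z u := by
  have h : esub S e ≤ centralizer {z} :=
    (closure_le _).2 fun t ht => mem_centralizer_singleton_iff.2 (hz t ht).eq.symm
  exact (mem_centralizer_singleton_iff.1 (h hu)).symm

/-- The involutions in the centre of `esub S e`. -/
def zsub (S : Subgroup X) (e : ℕ) : Subgroup X where
  carrier := {z | z ∈ esub S e ∧ z * z = 1 ∧ ∀ t ∈ tset S e, Commute z t}
  one_mem' := ⟨one_mem _, one_mul 1, fun t _ => Commute.one_left t⟩
  mul_mem' := fun {a b} ⟨ha, ha2, hac⟩ ⟨hb, hb2, hbc⟩ => by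
    refine ⟨mul_mem ha hb, ?_, fun t ht => (hac t ht).mul_left (hbc t ht)⟩
    have hab : Commute a b := commute_esub hac hb
    calc a * b * (a * b) = a * (b * a) * b := by group
      _ = a * (a * b) * b := by rw [hab.eq]
      _ = a * a * (b * b) := by group
      _ = 1 := by rw [ha2, hb2, one_mul]
  inv_mem' := fun {a} ⟨ha, ha2, hac⟩ =>
    ⟨inv_mem ha, by rw [← mul_inv_rev, ha2, inv_one], fun t ht => (hac t ht).inv_left⟩

theorem conj_mem_zsub {s z : X} (hs : s ∈ S) (hz : z ∈ zsub S e) : s * z * s⁻¹ ∈ zsub S e := by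
  obtain ⟨h1, h2, h3⟩ := hz
  refine ⟨conj_mem_esub hs h1, ?_, fun t ht => ?_⟩
  · calc s * z * s⁻¹ * (s * z * s⁻¹) = s * (z * z) * s⁻¹ := by group
      _ = 1 := by rw [h2, mul_one, mul_inv_cancel]
  · have h := (h3 (s⁻¹ * t * s⁻¹⁻¹) (conj_mem_tset (inv_mem hs) ht)).map (MulAut.conj s).toMonoidHom
    simp only [MulEquiv.coe_toMonoidHom, MulAut.conj_apply] at h
    rwa [show s * (s⁻¹ * t * s⁻¹⁻¹) * s⁻¹ = t by group] at h

theorem orderOf_two_pow_of_mem {e : ℕ} (hS : IsPGroup 2 S) {z x : X} (hz : z ∈ esub S e) (hx : x ∈ S) :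
    ∃ i, orderOf (z * x) = 2 ^ i := exists_orderOf_eq hS (mul_mem (esub_le hz) hx)

end powers

/-! ### The image of the stabilizer -/

section image

variable {Y : Type*} [Group Y] {F : Type*} [Field F] {q : ℕ} [Fact q.Prime]

/-- The map onto the image in the isometry group. -/
noncomputable def toImg (d : CharData Y F q) : Y →* (imgHom d).range := (imgHom d).rangeRestrict

/-- The action of the image. -/
noncomputable def imgAct (d : CharData Y F q) : (imgHom d).range →* Module.End (ZMod q) d.bar :=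
  (Units.coeHom _).comp (imgHom d).range.subtype

theorem imgAct_isIsoRep (d : CharData Y F q) : IsIsoRep (imgAct d) d.form := by
  refine ⟨d.form_alt, d.form_nondeg, ?_⟩
  rintro ⟨_, g, rfl⟩ u v
  exact d.isIsoRep.iso g u v

theorem imgAct_injective (d : CharData Y F q) : Function.Injective (imgAct d) :=
  fun _ _ h => Subtype.ext (Units.ext h)

theorem toImg_eq_one {d : CharData Y F q} {g : Y} : toImg d g = 1 ↔ d.act g = 1 := by
  constructor
  · intro h; exact congrArg (imgAct d) h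
  · intro h; exact Subtype.ext (Units.ext h)

theorem isRefl_toImg {d : CharData Y F q} {m : ℕ} {y : Y} (h : IsRefl d.act m y) :
    IsRefl (imgAct d) m (toImg d y) := by
  refine ⟨h.dim, fun v hv => ?_⟩
  rw [← map_pow]
  exact h.neg v hv

end image

theorem reflPrime_unique {q m n : ℕ} (hm : IsReflPrime q m) (hn : IsReflPrime q n) : n = m :=
  Nat.pow_right_injective le_rfl (hn.eq.symm.trans hm.eq)

/-! ### The components -/

section component

variable {X : Type*} [Group X] [Finite X] {F : Type*} [Field F] [CharP F 2] [IsAlgClosed F]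
  {V : Type*} [AddCommGroup V] [Module F V] [FiniteDimensional F V] {ρ : X →* Module.End F V}

/-- The hypothesis on the 2-elements. -/
def HasNoFree (ρ : X →* Module.End F V) (e : ℕ) : Prop :=
  ∀ x : X, (∃ i, orderOf x = 2 ^ i) →
    x ^ 2 ^ e = 1 ∧ ∀ v, (∑ i ∈ Finset.range (2 ^ e), (ρ x) ^ i) v = 0

variable {q : ℕ} [Fact q.Prime] {K : Subgroup X} [K.Normal] {e : ℕ}

set_option maxHeartbeats 800000 in
/-- The dichotomy for one element at one component. -/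
theorem component_pow (hall : HasNoFree ρ e) (hq2 : q ≠ 2) (hexp : ∀ k ∈ K, k ^ q = 1)
    (hcls : ∀ a ∈ K, ∀ b ∈ K, ∀ c ∈ K, Commute ⁅a, b⁆ c) {ζ : F} (hζ : IsPrimitiveRoot ζ q)
    (χ : zc K →* F) (hχ : haveI := zc_normal K; eig ρ (zc K) χ ≠ ⊥) {x : X}
    (hx : ∃ i, orderOf x = 2 ^ i) :
    haveI := zc_normal K
    ∃ h : x ^ 2 ^ (e - 1) ∈ charStab χ, toImg (charData hexp hcls hζ χ) ⟨_, h⟩ = 1 ∨
      ∃ m, m ≤ e ∧ IsReflPrime q m ∧ ∃ h' : x ^ 2 ^ (e - m) ∈ charStab χ,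
        IsRefl (imgAct (charData hexp hcls hζ χ)) m (toImg (charData hexp hcls hζ χ) ⟨_, h'⟩) := by
  haveI := zc_normal K
  haveI := Fact.mk Nat.prime_two
  obtain ⟨hxe, hexc⟩ := hall x hx
  obtain ⟨j, hje, hjy, hsum⟩ := exists_period hχ hxe hexc
  set d := charData hexp hcls hζ χ
  set y : charStab χ := ⟨x ^ 2 ^ j, hjy⟩ with hy
  set n := e - j with hn
  have hn1 : 1 ≤ n := by omega
  have hτ : ((y ^ 2 ^ (n - 1) : charStab χ) : X) = x ^ 2 ^ (e - 1) := by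
    show (x ^ 2 ^ j) ^ 2 ^ (n - 1) = _
    rw [← pow_mul, ← pow_add]; congr 2; omega
  refine ⟨hτ ▸ (y ^ 2 ^ (n - 1)).2, ?_⟩
  by_cases hact : d.act (y ^ 2 ^ (n - 1)) = 1
  · left
    rw [toImg_eq_one]
    rwa [show (⟨x ^ 2 ^ (e - 1), _⟩ : charStab χ) = y ^ 2 ^ (n - 1) from Subtype.ext hτ.symm]
  right
  haveI : Nontrivial (eig ρ (zc K) χ) := Submodule.nontrivial_iff_ne_bot.2 hχ
  have hy2 : y ^ 2 ^ n = 1 := Subtype.ext (by
    show (x ^ 2 ^ j) ^ 2 ^ n = 1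
    rw [← pow_mul, ← pow_add, show j + n = e by omega, hxe])
  have hexc' : (eigRep ρ χ y - 1) ^ (2 ^ n - 1) = 0 := by
    have hpoly := congrArg (Polynomial.aeval (eigRep ρ χ y)) (HH.sub_one_pow_pred (F := F) 2 n)
    simp only [map_pow, map_sub, Polynomial.aeval_X, map_one, map_sum] at hpoly
    rw [hpoly]
    refine LinearMap.ext fun v => Subtype.ext ?_
    rw [LinearMap.sum_apply, LinearMap.zero_apply, Submodule.coe_sum, ZeroMemClass.coe_zero]
    rw [← hsum v.1 v.2, LinearMap.sum_apply]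
    refine Finset.sum_congr rfl fun b _ => ?_
    rw [← map_pow, ← map_pow]
    rfl
  obtain ⟨hm, hrefl⟩ := component_refl (d := d) (ρ := eigRep ρ χ)
    (fun z v => Subtype.ext (mem_eig.1 v.2 ⟨((z : charStab χ) : X), coe_mem_zc (le_charStab χ) z.2⟩))
    hq2 hn1 hy2 hexc' hact
  refine ⟨n, by omega, hm, ?_⟩
  have hj : e - n = j := by omega
  rw [hj]
  exact ⟨hjy, isRefl_toImg hrefl⟩

end component

/-! ### One component, abstractly -/

section abstract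

variable {X : Type*} [Group X] [Finite X] {q : ℕ} [Fact q.Prime] {H : Type*} [Group H] [Finite H]
  [Group.IsSolvable H] {W : Type*} [AddCommGroup W] [Module (ZMod q) W] [FiniteDimensional (ZMod q) W]
  {B : W →ₗ[ZMod q] W →ₗ[ZMod q] ZMod q} {σ : H →* Module.End (ZMod q) W} {C : Subgroup X} {f : C →* H}
  {e : ℕ}

/-- The facts used about one component. -/
structure IsComp (e : ℕ) (σ : H →* Module.End (ZMod q) W) (f : C →* H) : Prop where
  pos : 1 ≤ e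
  exp : ∀ x : X, (∃ i, orderOf x = 2 ^ i) → x ^ 2 ^ e = 1
  dich : ∀ x : X, (∃ i, orderOf x = 2 ^ i) → ∃ h : x ^ 2 ^ (e - 1) ∈ C, f ⟨_, h⟩ = 1 ∨
    ∃ m, m ≤ e ∧ IsReflPrime q m ∧ ∃ h' : x ^ 2 ^ (e - m) ∈ C, IsRefl σ m (f ⟨_, h'⟩)

/-- The image of the powers: they lie in `T ∩ O_{2',2}` and are involutions of reflections. -/
theorem component_tset (hC : IsComp e σ f) (hσ : IsIsoRep σ B) (hinj : Function.Injective σ)
    {S : Subgroup X} {t : X} (ht : t ∈ tset S e) :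
    ∃ h : t ∈ C,
      f ⟨t, h⟩ ∈ (S.subgroupOf C).map f ⊓ pPrimePCore 2 H ∧ f ⟨t, h⟩ * f ⟨t, h⟩ = 1 ∧
        (f ⟨t, h⟩ = 1 ∨ ∃ m y3, IsReflPrime q m ∧ IsRefl σ m y3 ∧ y3 ^ 2 ^ m = 1 ∧
          f ⟨t, h⟩ = y3 ^ 2 ^ (m - 1)) := by
  haveI := Fact.mk Nat.prime_two
  obtain ⟨htS, x, hx, rfl⟩ := ht
  obtain ⟨h, hd⟩ := hC.dich _ hx
  refine ⟨h, ?_⟩
  set a := f ⟨_, h⟩
  have ha2 : a * a = 1 := by
    rw [← map_mul, show (⟨_, h⟩ : C) * ⟨_, h⟩ = 1 from Subtype.ext (by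
      show x ^ 2 ^ (e - 1) * x ^ 2 ^ (e - 1) = 1
      rw [← pow_add, ← Nat.two_mul, ← pow_succ', Nat.sub_add_cancel hC.pos, hC.exp x hx]), map_one]
  have haT : a ∈ (S.subgroupOf C).map f := ⟨⟨_, h⟩, htS, rfl⟩
  rcases hd with hd | ⟨m, hme, hm, h', hr⟩
  · exact ⟨⟨haT, by rw [show a = 1 from hd]; exact one_mem _⟩, ha2, Or.inl hd⟩
  set y3 := f ⟨_, h'⟩ with hy3
  have hm2 := hm.two_le
  have hpow : a = y3 ^ 2 ^ (m - 1) := by
    rw [hy3, ← map_pow]
    exact congrArg _ (Subtype.ext (by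
      show x ^ 2 ^ (e - 1) = (x ^ 2 ^ (e - m)) ^ 2 ^ (m - 1)
      rw [← pow_mul, ← pow_add]; congr 2; omega))
  have hy3e : y3 ^ 2 ^ m = 1 := by
    rw [hy3, ← map_pow, show (⟨_, h'⟩ : C) ^ 2 ^ m = 1 from Subtype.ext (by
      show (x ^ 2 ^ (e - m)) ^ 2 ^ m = 1
      rw [← pow_mul, ← pow_add, show e - m + m = e by omega, hC.exp x hx]), map_one]
  refine ⟨⟨haT, ?_⟩, ha2, Or.inr ⟨m, y3, hm, hr, hy3e, hpow⟩⟩
  rw [hpow]
  exact Gross.pow_mem_pPrimePCore hm hσ hinj hy3e hr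

theorem esub_le_comp (hC : IsComp e σ f) (hσ : IsIsoRep σ B) (hinj : Function.Injective σ)
    {S : Subgroup X} {b : X} (hb : b ∈ esub S e) :
    ∃ h : b ∈ C, f ⟨b, h⟩ ∈
      closure {a | ∃ t : C, (t : X) ∈ tset S e ∧ f t = a} := by
  have hle : esub S e ≤ ((closure {a | ∃ t : C, (t : X) ∈ tset S e ∧
      f t = a}).comap f).map
        C.subtype := (closure_le _).2 fun t ht => by
    obtain ⟨h, -⟩ := component_tset hC hσ hinj ht
    exact ⟨⟨t, h⟩, subset_closure ⟨⟨t, h⟩, ht, rfl⟩, rfl⟩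
  obtain ⟨b', hb', rfl⟩ := hle hb
  exact ⟨b'.2, hb'⟩

set_option maxHeartbeats 800000 in
/-- The first identity at one component. -/
theorem component_commute (hC : IsComp e σ f) (hσ : IsIsoRep σ B) (hinj : Function.Injective σ)
    {S : Subgroup X} (hS : IsPGroup 2 S) {x t t3 : X} (hx : x ∈ S) (ht : t ∈ tset S e)
    (ht3 : t3 ∈ tset S e) :
    ∃ h : ⁅(t * x) ^ 2 ^ (e - 1) * (x ^ 2 ^ (e - 1))⁻¹, t3⁆ ∈ C,
      f ⟨_, h⟩ = 1 := by
  haveI := Fact.mk Nat.prime_two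
  set T := (S.subgroupOf C).map f with hT
  have hTp : IsPGroup 2 T := (hS.comap_of_injective _ C.subtype_injective).map f
  have htx : t * x ∈ S := mul_mem ht.1 hx
  obtain ⟨h3, h3T, h32, h3r⟩ := component_tset hC hσ hinj ht3
  obtain ⟨h1, h1d⟩ := hC.dich _ (exists_orderOf_eq hS htx)
  obtain ⟨h0, h0d⟩ := hC.dich _ (exists_orderOf_eq hS hx)
  set A1 : C := ⟨_, h1⟩
  set A0 : C := ⟨_, h0⟩
  set A3 : C := ⟨t3, h3⟩
  suffices hc : Commute (f (A1 * A0⁻¹)) (f A3) by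
    refine ⟨(⁅A1 * A0⁻¹, A3⁆ : C).2, ?_⟩
    show f ⁅A1 * A0⁻¹, A3⁆ = 1
    rw [map_commutatorElement]
    exact commutatorElement_eq_one_iff_mul_comm.2 hc.eq
  -- the elements of period `2 ^ (e - m)`
  have hb : ∀ n : ℕ, (t * x) ^ n * (x ^ n)⁻¹ ∈ esub S e :=
    mul_pow_mul_inv_mem fun n => conj_mem_esub (pow_mem hx n) (mem_esub ht)
  have hpow : ∀ {y : X} {m : ℕ}, m ≤ e → IsReflPrime q m → ∀ (h' : y ^ 2 ^ (e - m) ∈ C)
      (h : y ^ 2 ^ (e - 1) ∈ C), f ⟨_, h'⟩ ^ 2 ^ (m - 1) = f ⟨_, h⟩ := by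
    intro y m hme hm h' h
    rw [← map_pow]
    refine congrArg f (Subtype.ext ?_)
    show (y ^ 2 ^ (e - m)) ^ 2 ^ (m - 1) = y ^ 2 ^ (e - 1)
    rw [← pow_mul, ← pow_add]; congr 2; have := hm.two_le; omega
  have hA : ∀ {m : ℕ}, IsReflPrime q m →
      ∀ a ∈ {a | ∃ u : C, (u : X) ∈ tset S e ∧ f u = a},
      a ∈ T ⊓ pPrimePCore 2 H ∧ a * a = 1 ∧
        (a = 1 ∨ ∃ y3 k, IsRefl σ m y3 ∧ y3 ^ 2 ^ k = 1 ∧ a = y3 ^ 2 ^ (m - 1)) := by
    rintro m hm _ ⟨u, hu, rfl⟩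
    obtain ⟨hu', hT', h2', h'⟩ := component_tset hC hσ hinj hu
    refine ⟨hT', h2', h'.imp id ?_⟩
    rintro ⟨n, y3, hn, hr, hy, he'⟩
    obtain rfl := reflPrime_unique hm hn
    exact ⟨y3, n, hr, hy, he'⟩
  have hclo : ∀ {m : ℕ}, IsReflPrime q m →
      closure {a | ∃ u : C, (u : X) ∈ tset S e ∧ f u = a} ≤ pPrimePCore 2 H :=
    fun hm => (closure_le _).2 fun a ha => (hA hm a ha).1.2
  by_cases hr1 : f A1 = 1
  · by_cases hr0 : f A0 = 1
    · rw [map_mul, map_inv, hr1, hr0, inv_one, mul_one]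
      exact Commute.one_left _
    exfalso
    obtain ⟨m, hme, hm, h0', hr⟩ := h0d.resolve_left hr0
    obtain ⟨hbC, hbcl⟩ := esub_le_comp hC hσ hinj (hb (2 ^ (e - m)))
    have h1' : (t * x) ^ 2 ^ (e - m) ∈ C := by
      have := mul_mem hbC h0'
      rwa [inv_mul_cancel_right] at this
    refine false_of_one_sided hm hσ hinj hTp ⟨⟨_, h0'⟩, pow_mem hx _, rfl⟩ hr (hA hm) (inv_mem hbcl) ?_
    rw [inv_inv, ← map_mul, show (⟨_, hbC⟩ : C) * ⟨_, h0'⟩ = ⟨_, h1'⟩ from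
      Subtype.ext (inv_mul_cancel_right _ _)]
    exact (hpow hme hm h1' h1).trans hr1
  obtain ⟨m, hme, hm, h1', hrw⟩ := h1d.resolve_left hr1
  obtain ⟨hbC, hbcl⟩ := esub_le_comp hC hσ hinj (hb (2 ^ (e - m)))
  by_cases hr0 : f A0 = 1
  · exfalso
    have h0' : x ^ 2 ^ (e - m) ∈ C := by
      have := mul_mem (inv_mem hbC) h1'
      rwa [mul_inv_rev, inv_inv, inv_mul_cancel_right] at this
    refine false_of_one_sided hm hσ hinj hTp ⟨⟨_, h1'⟩, pow_mem htx _, rfl⟩ hrw (hA hm) hbcl ?_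
    rw [← map_inv, ← map_mul, show (⟨_, hbC⟩ : C)⁻¹ * ⟨_, h1'⟩ = ⟨_, h0'⟩ from
      Subtype.ext (by
        show ((t * x) ^ 2 ^ (e - m) * (x ^ 2 ^ (e - m))⁻¹)⁻¹ * (t * x) ^ 2 ^ (e - m) = _
        rw [mul_inv_rev, inv_inv, inv_mul_cancel_right])]
    exact (hpow hme hm h0' h0).trans hr0
  obtain ⟨n, -, hn, h0', hry⟩ := h0d.resolve_left hr0
  obtain rfl := reflPrime_unique hm hn
  rcases h3r with h3r | ⟨n', y3, hn', hr3, hy3, he3⟩
  · rw [show f A3 = 1 from h3r]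
    exact Commute.one_right _
  obtain rfl := reflPrime_unique hm hn'
  have hy2 : f ⟨_, h0'⟩ ^ 2 ^ n' = 1 := by
    rw [← map_pow, show (⟨_, h0'⟩ : C) ^ 2 ^ n' = 1 from Subtype.ext (by
      show (x ^ 2 ^ (e - n')) ^ 2 ^ n' = 1
      rw [← pow_mul, ← pow_add, show e - n' + n' = e by omega, hC.exp x (exists_orderOf_eq hS hx)]),
      map_one]
  have hL : f ⟨_, h1'⟩ * (f ⟨_, h0'⟩)⁻¹ ∈ pPrimePCore 2 H := by
    rw [← map_inv, ← map_mul, show (⟨_, h1'⟩ : C) * ⟨_, h0'⟩⁻¹ = ⟨_, hbC⟩ from Subtype.ext rfl]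
    exact hclo hm hbcl
  have := commute_pow_half_mul hm hσ hinj hTp (w := f ⟨_, h1'⟩) (y := f ⟨_, h0'⟩)
    ⟨⟨_, h1'⟩, pow_mem htx _, rfl⟩ ⟨⟨_, h0'⟩, pow_mem hx _, rfl⟩ hrw hry hy2 hL hr3 hy3 (he3 ▸ h3T)
  rw [hpow hme hm h1' h1, hpow hme hm h0' h0, ← he3] at this
  have hinv : (f A0)⁻¹ = f A0 := by
    refine inv_eq_of_mul_eq_one_right ?_
    rw [← map_mul, show A0 * A0 = 1 from Subtype.ext (by
      show x ^ 2 ^ (e - 1) * x ^ 2 ^ (e - 1) = 1
      rw [← pow_add, ← Nat.two_mul, ← pow_succ', Nat.sub_add_cancel hC.pos,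
        hC.exp x (exists_orderOf_eq hS hx)]), map_one]
  rw [map_mul, map_inv, hinv]
  exact this

set_option maxHeartbeats 800000 in
/-- The second identity at one component. -/
theorem component_fix (hC : IsComp e σ f) (hσ : IsIsoRep σ B) (hinj : Function.Injective σ)
    {S : Subgroup X} (hS : IsPGroup 2 S) {x z : X} (hx : x ∈ S) (hz : z ∈ zsub S e) :
    ∃ h : (z * x) ^ 2 ^ (e - 1) * (x ^ 2 ^ (e - 1))⁻¹ ∈ C,
      f ⟨_, h⟩ = 1 := by
  have hzx : z * x ∈ S := mul_mem (esub_le hz.1) hx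
  obtain ⟨h1, h1d⟩ := hC.dich _ (exists_orderOf_eq hS hzx)
  obtain ⟨h0, h0d⟩ := hC.dich _ (exists_orderOf_eq hS hx)
  set A1 : C := ⟨_, h1⟩
  set A0 : C := ⟨_, h0⟩
  suffices hc : f A1 = f A0 by
    refine ⟨(A1 * A0⁻¹).2, ?_⟩
    show f (A1 * A0⁻¹) = 1
    rw [map_mul, map_inv, hc, mul_inv_cancel]
  have hb : ∀ n : ℕ, (z * x) ^ n * (x ^ n)⁻¹ ∈ zsub S e :=
    mul_pow_mul_inv_mem fun n => conj_mem_zsub (pow_mem hx n) hz
  have hpow : ∀ {y : X} {m : ℕ}, m ≤ e → IsReflPrime q m → ∀ (h' : y ^ 2 ^ (e - m) ∈ C)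
      (h : y ^ 2 ^ (e - 1) ∈ C), f ⟨_, h'⟩ ^ 2 ^ (m - 1) = f ⟨_, h⟩ := by
    intro y m hme hm h' h
    rw [← map_pow]
    refine congrArg f (Subtype.ext ?_)
    show (y ^ 2 ^ (e - m)) ^ 2 ^ (m - 1) = y ^ 2 ^ (e - 1)
    rw [← pow_mul, ← pow_add]; congr 2; have := hm.two_le; omega
  -- `b = (z x) ^ n x ^ (-n)` is an involution commuting with the powers
  have hbb : ∀ (n : ℕ) (hbC : (z * x) ^ n * (x ^ n)⁻¹ ∈ C), f ⟨_, hbC⟩ * f ⟨_, hbC⟩ = 1 :=
    fun n hbC => by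
      rw [← map_mul, show (⟨_, hbC⟩ : C) * ⟨_, hbC⟩ = 1 from Subtype.ext (hb n).2.1, map_one]
  have hbc : ∀ (n : ℕ) (hbC : (z * x) ^ n * (x ^ n)⁻¹ ∈ C) {y : X} (hy : y ∈ S)
      (h : y ^ 2 ^ (e - 1) ∈ C), Commute (f ⟨_, hbC⟩) (f ⟨_, h⟩) :=
    fun n hbC y hy h => Commute.map
      (show Commute (⟨_, hbC⟩ : C) ⟨_, h⟩ from
        Subtype.ext ((hb n).2.2 _ (pow_mem_tset hS hy)).eq) f
  by_cases hr0 : f A0 = 1
  · by_cases hr1 : f A1 = 1
    · rw [hr0, hr1]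
    -- `x` is a translate of `z x`
    obtain ⟨m, hme, hm, h1', hr⟩ := h1d.resolve_left hr1
    obtain ⟨hbC, -⟩ := esub_le_comp hC hσ hinj (hb (2 ^ (e - m))).1
    have h0' : x ^ 2 ^ (e - m) ∈ C := by
      have := mul_mem (inv_mem hbC) h1'
      rwa [mul_inv_rev, inv_inv, inv_mul_cancel_right] at this
    have heq : f ⟨_, hbC⟩ * f ⟨_, h1'⟩ = f ⟨_, h0'⟩ := by
      conv_lhs => arg 1; rw [← inv_eq_of_mul_eq_one_right (hbb _ hbC)]
      rw [← map_inv, ← map_mul]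
      exact congrArg f (Subtype.ext (by
        show ((z * x) ^ 2 ^ (e - m) * (x ^ 2 ^ (e - m))⁻¹)⁻¹ * (z * x) ^ 2 ^ (e - m) = _
        rw [mul_inv_rev, inv_inv, inv_mul_cancel_right]))
    have hcb : Commute (f ⟨_, hbC⟩) (f ⟨_, h1'⟩ ^ 2 ^ (m - 1)) := by
      rw [hpow hme hm h1' h1]; exact hbc _ hbC hzx h1
    have := pow_half_eq hm hσ hinj hr (hbb _ hbC) hcb (Or.inl (by
      rw [heq, hpow hme hm h0' h0, hr0]))
    rw [heq, hpow hme hm h0' h0, hpow hme hm h1' h1] at this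
    exact this.symm
  obtain ⟨m, hme, hm, h0', hr⟩ := h0d.resolve_left hr0
  obtain ⟨hbC, -⟩ := esub_le_comp hC hσ hinj (hb (2 ^ (e - m))).1
  have h1' : (z * x) ^ 2 ^ (e - m) ∈ C := by
    have := mul_mem hbC h0'
    rwa [inv_mul_cancel_right] at this
  have heq : f ⟨_, hbC⟩ * f ⟨_, h0'⟩ = f ⟨_, h1'⟩ := by
    rw [← map_mul]; exact congrArg f (Subtype.ext (inv_mul_cancel_right _ _))
  have hcb : Commute (f ⟨_, hbC⟩) (f ⟨_, h0'⟩ ^ 2 ^ (m - 1)) := by
    rw [hpow hme hm h0' h0]; exact hbc _ hbC hx h0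
  have hw : (f ⟨_, hbC⟩ * f ⟨_, h0'⟩) ^ 2 ^ (m - 1) = 1 ∨ IsRefl σ m (f ⟨_, hbC⟩ * f ⟨_, h0'⟩) := by
    rw [heq]
    by_cases hr1 : f A1 = 1
    · exact Or.inl (by rw [hpow hme hm h1' h1, hr1])
    · obtain ⟨n, -, hn, h1'', hr'⟩ := h1d.resolve_left hr1
      obtain rfl := reflPrime_unique hm hn
      exact Or.inr hr'
  have := pow_half_eq hm hσ hinj hr (hbb _ hbC) hcb hw
  rw [heq, hpow hme hm h1' h1, hpow hme hm h0' h0] at this
  exact this

end abstract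

/-! ### The global identities -/

section component

variable {X : Type*} [Group X] [Finite X] {F : Type*} [Field F] [CharP F 2] [IsAlgClosed F]
  {V : Type*} [AddCommGroup V] [Module F V] [FiniteDimensional F V] {ρ : X →* Module.End F V}
  {q : ℕ} [Fact q.Prime] {K : Subgroup X} [K.Normal] {e : ℕ}

theorem isComp_toImg (hall : HasNoFree ρ e) (he : 1 ≤ e) (hq2 : q ≠ 2) (hexp : ∀ k ∈ K, k ^ q = 1)
    (hcls : ∀ a ∈ K, ∀ b ∈ K, ∀ c ∈ K, Commute ⁅a, b⁆ c) {ζ : F} (hζ : IsPrimitiveRoot ζ q)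
    (χ : zc K →* F) (hχ : haveI := zc_normal K; eig ρ (zc K) χ ≠ ⊥) :
    haveI := zc_normal K
    IsComp e (imgAct (charData hexp hcls hζ χ)) (toImg (charData hexp hcls hζ χ)) :=
  ⟨he, fun x hx => (hall x hx).1, fun _ hx => component_pow hall hq2 hexp hcls hζ χ hχ hx⟩

omit q K in
/-- **First identity**. -/
theorem commute_pow_div [Group.IsSolvable X] (hO : pCore 2 X = ⊥) (hinj : Function.Injective ρ)
    (hall : HasNoFree ρ e) (he : 1 ≤ e) {S : Subgroup X} (hS : IsPGroup 2 S) {x t t3 : X}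
    (hx : x ∈ S) (ht : t ∈ tset S e) (ht3 : t3 ∈ tset S e) :
    Commute ((t * x) ^ 2 ^ (e - 1) * (x ^ 2 ^ (e - 1))⁻¹) t3 := by
  set v := (t * x) ^ 2 ^ (e - 1) * (x ^ 2 ^ (e - 1))⁻¹ with hv
  have hvS : v ∈ S := mul_mem (pow_mem (mul_mem ht.1 hx) _) (inv_mem (pow_mem hx _))
  refine commutatorElement_eq_one_iff_mul_comm.1 (eq_one_of_act_eq_one hO hinj (exists_orderOf_eq hS ?_)
    fun q _ hq2 K _ hexp hcls ζ hζ χ hχ => ?_)
  · rw [commutatorElement_def]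
    exact mul_mem (mul_mem (mul_mem hvS ht3.1) (inv_mem hvS)) (inv_mem ht3.1)
  haveI := zc_normal K
  haveI : Finite (imgHom (charData hexp hcls hζ χ)).range :=
    Finite.of_surjective _ (imgHom _).rangeRestrict_surjective
  haveI : Group.IsSolvable (imgHom (charData hexp hcls hζ χ)).range :=
    Group.isSolvable_of_surjective (imgHom _).rangeRestrict_surjective
  obtain ⟨h, h'⟩ := component_commute (isComp_toImg hall he hq2 hexp hcls hζ χ hχ) (imgAct_isIsoRep _)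
    (imgAct_injective _) hS hx ht ht3
  exact ⟨h, toImg_eq_one.1 h'⟩

omit q K in
/-- **Second identity**. -/
theorem mul_pow_eq_pow [Group.IsSolvable X] (hO : pCore 2 X = ⊥) (hinj : Function.Injective ρ)
    (hall : HasNoFree ρ e) (he : 1 ≤ e) {S : Subgroup X} (hS : IsPGroup 2 S) {x z : X}
    (hx : x ∈ S) (hz : z ∈ zsub S e) : (z * x) ^ 2 ^ (e - 1) = x ^ 2 ^ (e - 1) :=
  mul_inv_eq_one.1 (eq_one_of_act_eq_one hO hinj
    (exists_orderOf_eq hS (mul_mem (pow_mem (mul_mem (esub_le hz.1) hx) _) (inv_mem (pow_mem hx _))))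
    fun q _ hq2 K _ hexp hcls ζ hζ χ hχ =>
      haveI := zc_normal K
      haveI : Finite (imgHom (charData hexp hcls hζ χ)).range :=
        Finite.of_surjective _ (imgHom _).rangeRestrict_surjective
      haveI : Group.IsSolvable (imgHom (charData hexp hcls hζ χ)).range :=
        Group.isSolvable_of_surjective (imgHom _).rangeRestrict_surjective
      let ⟨h, h'⟩ := component_fix (isComp_toImg hall he hq2 hexp hcls hζ χ hχ) (imgAct_isIsoRep _)
        (imgAct_injective _) hS hx hz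
      ⟨h, toImg_eq_one.1 h'⟩)

end component

end Cfsg.Agent.TwoLen
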