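import Cfsg.Agent.Gross.Main

/-!
# A 2-element acting trivially on every component is trivial
-/

set_option autoImplicit false
set_option linter.unusedSectionVars false
set_option linter.style.haveILetI false

namespace Cfsg.Agent.TwoLen

open scoped commutatorElement
open Module LinearMap Subgroup Cfsg Cfsg.Agent.Gross

variable {X : Type*} [Group X] [Finite X] {F : Type*} [Field F] [CharP F 2] [IsAlgClosed F]
  {V : Type*} [AddCommGroup V] [Module F V] [FiniteDimensional F V] {ρ : X →* Module.End F V}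

set_option maxHeartbeats 800000 in
/-- **Detection**: a 2-element acting trivially on every component is trivial. -/
theorem eq_one_of_act_eq_one [Group.IsSolvable X] (hO : pCore 2 X = ⊥) (hinj : Function.Injective ρ)
    {g : X} (hg : ∃ i, orderOf g = 2 ^ i)
    (htriv : ∀ (q : ℕ) (_ : Fact q.Prime) (_ : q ≠ 2) (K : Subgroup X) (_ : K.Normal)
      (hexp : ∀ k ∈ K, k ^ q = 1) (hcls : ∀ a ∈ K, ∀ b ∈ K, ∀ c ∈ K, Commute ⁅a, b⁆ c)
      (ζ : F) (hζ : IsPrimitiveRoot ζ q) (χ : zc K →* F),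
      (haveI := zc_normal K; eig ρ (zc K) χ ≠ ⊥) →
      (haveI := zc_normal K; ∃ h : g ∈ charStab χ, (charData hexp hcls hζ χ).act ⟨g, h⟩ = 1)) :
    g = 1 := by
  classical
  haveI := Fact.mk Nat.prime_two
  obtain ⟨i, hi⟩ := hg
  have hcop : ∀ r : ℕ, r.Prime → r ≠ 2 → (orderOf g).Coprime r := fun r hr hr2 => by
    rw [hi]; exact ((Nat.coprime_primes Nat.prime_two hr).2 (Ne.symm hr2)).pow_left i
  have hF : fittingSubgroup X ≤ pPrimeCore 2 X := by
    rw [Cores.fittingSubgroup_eq_iSup_pCore]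
    refine iSup_le fun r => ?_
    haveI := Fact.mk r.2
    by_cases hr : (r : ℕ) = 2
    · rw [hr, hO]; exact bot_le
    · obtain ⟨k, hk⟩ := IsPGroup.iff_card.1 (PSolv.isPGroup_pCore (r : ℕ) X)
      haveI := PSolv.pCore_characteristic (r : ℕ) X
      exact PSolv.le_pPrimeCore inferInstance
        (hk ▸ ((Nat.coprime_primes r.2 Nat.prime_two).2 hr).pow_left k)
  have hgF : g ∈ Subgroup.centralizer (fittingSubgroup X : Set X) := by
    rw [Cores.fittingSubgroup_eq_iSup_pCore]
    suffices h : ∀ r : Nat.Primes, ∀ a ∈ pCore (r : ℕ) X, Commute g a by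
      refine Subgroup.mem_centralizer_iff.2 fun a ha => ?_
      have hle : (⨆ r : Nat.Primes, pCore (r : ℕ) X) ≤ Subgroup.centralizer {g} :=
        iSup_le fun r a ha => Subgroup.mem_centralizer_singleton_iff.2 (h r a ha).eq.symm
      exact Subgroup.mem_centralizer_singleton_iff.1 (hle ha)
    intro r
    haveI := Fact.mk r.2
    by_cases hr : (r : ℕ) = 2
    · intro a ha
      rw [hr, hO, mem_bot] at ha
      rw [ha]; exact Commute.one_right g
    set q := (r : ℕ) with hq
    set P := pCore q X with hP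
    haveI hPc : P.Characteristic := PSolv.pCore_characteristic q X
    obtain ⟨D, hDc, hDcl, hDexp, hDfaith⟩ :=
      PGroup.exists_characteristic_exponent_prime hr (PSolv.isPGroup_pCore q X)
    set K := D.map P.subtype with hK
    haveI hKn : K.Normal := PSolv.map_subtype_normal hDc
    have hexp : ∀ k ∈ K, k ^ q = 1 := by
      rintro _ ⟨k, hk, rfl⟩
      rw [← map_pow, hDexp k hk, map_one]
    have hcls : ∀ a ∈ K, ∀ b ∈ K, ∀ c ∈ K, Commute ⁅a, b⁆ c := by
      rintro _ ⟨a, ha, rfl⟩ _ ⟨b, hb, rfl⟩ _ ⟨c, hc, rfl⟩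
      have h := hDcl (Subgroup.commutator_mem_commutator (mem_top (⟨a, ha⟩ : D)) (mem_top (⟨b, hb⟩ : D)))
      have h2 := (congrArg Subtype.val (Subgroup.mem_center_iff.1 h ⟨c, hc⟩))
      have h3 : P.subtype (c * ⁅a, b⁆) = P.subtype (⁅a, b⁆ * c) := congrArg _ h2
      show ⁅P.subtype a, P.subtype b⁆ * P.subtype c = P.subtype c * ⁅P.subtype a, P.subtype b⁆
      rw [← map_commutatorElement, ← map_mul, ← map_mul]
      exact h3.symm
    haveI := zc_normal K
    have hqF : (q : F) ≠ 0 := by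
      rw [Ne, CharP.cast_eq_zero_iff F 2]
      exact fun h => hr ((Nat.prime_dvd_prime_iff_eq Nat.prime_two r.2).1 h).symm
    haveI : NeZero (q : F) := ⟨hqF⟩
    obtain ⟨ζ, hζ⟩ := HasEnoughRootsOfUnity.exists_primitiveRoot F q
    have hZexp : ∀ z ∈ zc K, z ^ q = 1 := fun z hz => hexp z hz.1
    have hZcomm : ∀ a ∈ zc K, ∀ b ∈ zc K, Commute a b := fun a ha b hb =>
      Subgroup.mem_centralizer_iff.1 hb.2 a ha.1
    have hsep : ∀ z : zc K, (∀ χ : zc K →* F, eig ρ (zc K) χ ≠ ⊥ → χ z = 1) → z = 1 := by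
      intro z hz
      by_contra hne
      obtain ⟨χ, h1, h2⟩ := exists_char_ne_one (ρ := ρ) hqF hZexp hZcomm (z := z) (fun h => hne
        (Subtype.ext (hinj (by rw [h, OneMemClass.coe_one, map_one]))))
      exact h2 (hz χ h1)
    have hfix : ∀ χ : zc K →* F, eig ρ (zc K) χ ≠ ⊥ →
        ∃ h : g ∈ charStab χ, (charData hexp hcls hζ χ).act ⟨g, h⟩ = 1 :=
      fun χ hχ => htriv q inferInstance hr K hKn hexp hcls ζ hζ χ hχ
    -- `g` centralises the centre
    have hgZ : ∀ z ∈ zc K, Commute g z := by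
      intro z hz
      set z' : zc K := ⟨g * z * g⁻¹, (inferInstance : (zc K).Normal).conj_mem _ hz g⟩
      have h1 : z' * (⟨z, hz⟩ : zc K)⁻¹ = 1 := hsep _ fun χ hχ => by
        obtain ⟨hg, -⟩ := hfix χ hχ
        rw [map_mul, hg ⟨z, hz⟩ z' rfl, ← map_mul, mul_inv_cancel, map_one]
      exact mul_inv_eq_iff_eq_mul.1 (congrArg Subtype.val (mul_inv_eq_one.1 h1))
    have hgK : ⁅K, zpowers g⁆ ≤ zc K := by
      rw [Subgroup.commutator_le]
      intro k hk a ha
      set C := (Subgroup.centralizer ((K.map (QuotientGroup.mk' (zc K))) : Set (X ⧸ zc K))).comap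
        (QuotientGroup.mk' (zc K)) with hC
      have hgC : g ∈ C := by
        refine mem_comap.2 (Subgroup.mem_centralizer_iff.2 ?_)
        rintro _ ⟨k, hk, rfl⟩
        rw [← commutatorElement_eq_one_iff_mul_comm, ← map_commutatorElement]
        refine (QuotientGroup.eq_one_iff _).2 ?_
        have hcK : g * k * g⁻¹ * k⁻¹ ∈ K := K.mul_mem (hKn.conj_mem _ hk g) (K.inv_mem hk)
        have hmem : g * k * g⁻¹ * k⁻¹ ∈ zc K := by
          refine ⟨hcK, Subgroup.mem_centralizer_iff.2 fun l hl => ?_⟩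
          refine (commutatorElement_eq_one_iff_mul_comm.1 ?_).symm
          have hzm : ⁅g * k * g⁻¹ * k⁻¹, l⁆ ∈ zc K :=
            ⟨K.mul_mem (K.mul_mem (K.mul_mem hcK hl) (K.inv_mem hcK)) (K.inv_mem hl),
              Subgroup.mem_centralizer_iff.2 fun c hc => ((hcls _ hcK _ hl _ hc).eq).symm⟩
          refine congrArg Subtype.val (hsep ⟨_, hzm⟩ fun χ hχ => ?_)
          obtain ⟨hg, hact⟩ := hfix χ hχ
          set d := charData hexp hcls hζ χ
          have hKs : K ≤ charStab χ := le_charStab χ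
          let k' : d.K := ⟨⟨k, hKs hk⟩, hk⟩
          let l' : d.K := ⟨⟨l, hKs hl⟩, hl⟩
          have h5 := LinearMap.congr_fun hact (d.cls' k')
          rw [Module.End.one_apply, d.act_cls] at h5
          have h6 : d.cls' (d.cj ⟨g, hg⟩ k' * k'⁻¹) = 0 := by
            rw [d.cls_mul, d.cls_inv, h5, add_neg_cancel]
          have h7 := congrFun (congrArg Subtype.val h6) l'
          have h8 : d.cv (d.cj ⟨g, hg⟩ k' * k'⁻¹) l' = 1 := by
            rw [← d.pow_lg (d.cv_pow _ _)]
            show d.ζ ^ (d.pf (d.cj ⟨g, hg⟩ k' * k'⁻¹) l').val = 1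
            rw [show d.pf (d.cj ⟨g, hg⟩ k' * k'⁻¹) l' = 0 from h7, ZMod.val_zero, pow_zero]
          exact h8
        rw [show ⁅k, g⁆ = (g * k * g⁻¹ * k⁻¹)⁻¹ by rw [commutatorElement_def]; group]
        exact inv_mem hmem
      obtain ⟨m, rfl⟩ := ha
      have hm := Subgroup.mem_centralizer_iff.1 (mem_comap.1 (C.zpow_mem hgC m)) _ ⟨k, hk, rfl⟩
      rw [← QuotientGroup.eq_one_iff (N := zc K)]
      show QuotientGroup.mk' (zc K) ⁅k, g ^ m⁆ = 1
      rw [map_commutatorElement, commutatorElement_eq_one_iff_mul_comm]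
      exact hm
    have hzcP : IsPGroup q (zc K) :=
      (PSolv.isPGroup_pCore q X).to_le (inf_le_left.trans (map_subtype_le D))
    have hgK' : ∀ k ∈ K, Commute g k := fun k hk =>
      LocalP.commute_of_commutator_le hzcP (hcop q r.2 hr) hgZ hgK hk
    have hα : MulAut.conjNormal (H := P) g = 1 := by
      refine hDfaith _ (Nat.Coprime.coprime_dvd_left (orderOf_map_dvd _ g) (hcop q r.2 hr)) fun a ha => ?_
      refine Subtype.ext ?_
      rw [MulAut.conjNormal_apply]
      rw [(hgK' (a : X) ⟨a, ha, rfl⟩).eq]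
      exact mul_inv_cancel_right _ _
    intro a ha
    have := congrArg Subtype.val (DFunLike.congr_fun hα ⟨a, ha⟩)
    rw [MulAut.conjNormal_apply, MulAut.one_apply] at this
    exact mul_inv_eq_iff_eq_mul.1 this
  have hgO := hF (Cores.centralizer_fittingSubgroup_le hgF)
  have h3 : (orderOf g).Coprime 2 :=
    Element.coprime_orderOf_of_mem (PSolv.coprime_card_pPrimeCore 2 X) hgO
  rw [← orderOf_eq_one_iff]
  exact Nat.eq_one_of_dvd_coprimes (h3.pow_right i) dvd_rfl (dvd_of_eq hi)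

end Cfsg.Agent.TwoLen
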