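import Cfsg.Agent.TwoLen.Step
import Cfsg.Agent.Gross.Length
import Cfsg.Agent.HHTwo.Length
import Mathlib.Algebra.Module.ZMod
import Mathlib.LinearAlgebra.Prod

/-!
# The 2-length is at most the exponent
-/

set_option autoImplicit false
set_option linter.unusedSectionVars false
set_option linter.style.haveILetI false

namespace Cfsg.Agent.TwoLen

open scoped commutatorElement TensorProduct
open Subgroup Cfsg

universe u

/-- A rep with a filtration of three layers on which `(g - 1) ^ n` vanishes gives a faithful one. -/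
theorem exists_rep_of_filtration {H : Type u} [Group H] [Finite H] (hO : pCore 2 H = ⊥) {W : Type u}
    [AddCommGroup W] [Module (ZMod 2) W] [FiniteDimensional (ZMod 2) W]
    {ρ : H →* Module.End (ZMod 2) W} (hinj : Function.Injective ρ) {W0 W1 : Submodule (ZMod 2) W}
    (h0 : ∀ g, ∀ w ∈ W0, ρ g w ∈ W0) (h1 : ∀ g, ∀ w ∈ W1, ρ g w ∈ W1) (n : ℕ)
    (hn : ∀ g : H, (∃ i, orderOf g = 2 ^ i) → (∀ w ∈ W0, ((ρ g - 1) ^ n) w = 0) ∧
      (∀ w ∈ W1, ((ρ g - 1) ^ n) w ∈ W0) ∧ (∀ w, ((ρ g - 1) ^ n) w ∈ W1)) :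
    ∃ (U : Type u) (_ : AddCommGroup U) (_ : Module (ZMod 2) U) (_ : FiniteDimensional (ZMod 2) U)
      (ρ' : H →* Module.End (ZMod 2) U), Function.Injective ρ' ∧
        ∀ g : H, (∃ i, orderOf g = 2 ^ i) → (ρ' g - 1) ^ n = 0 := by
  haveI := Fact.mk Nat.prime_two
  set W01 : Submodule (ZMod 2) W1 := W0.comap W1.subtype with hW01
  let r1 : H → Module.End (ZMod 2) W1 := fun g => (ρ g).restrict (h1 g)
  let r0 : H → Module.End (ZMod 2) W0 := fun g => (ρ g).restrict (h0 g)
  have hr1 : ∀ g, W01 ≤ W01.comap (r1 g) := fun g w hw => h0 g _ hw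
  have hr2 : ∀ g, W1 ≤ W1.comap (ρ g) := fun g w hw => h1 g w hw
  let ρ' : H →* Module.End (ZMod 2) (W0 × (W1 ⧸ W01) × (W ⧸ W1)) :=
    { toFun := fun g => LinearMap.prodMap (r0 g)
        (LinearMap.prodMap (W01.mapQ W01 (r1 g) (hr1 g)) (W1.mapQ W1 (ρ g) (hr2 g)))
      map_one' := by
        refine LinearMap.ext fun ⟨a, b, c⟩ => ?_
        obtain ⟨b, rfl⟩ := Submodule.Quotient.mk_surjective _ b
        obtain ⟨c, rfl⟩ := Submodule.Quotient.mk_surjective _ c
        refine Prod.ext (Subtype.ext ?_) (Prod.ext ?_ ?_)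
        · simp [r0]
        · show W01.mapQ W01 (r1 1) (hr1 1) (Submodule.Quotient.mk b) = Submodule.Quotient.mk b
          rw [Submodule.mapQ_apply]
          exact congrArg _ (Subtype.ext (by simp [r1]))
        · show W1.mapQ W1 (ρ 1) (hr2 1) (Submodule.Quotient.mk c) = Submodule.Quotient.mk c
          rw [Submodule.mapQ_apply, map_one, Module.End.one_apply]
      map_mul' := fun g g' => by
        refine LinearMap.ext fun ⟨a, b, c⟩ => ?_
        obtain ⟨b, rfl⟩ := Submodule.Quotient.mk_surjective _ b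
        obtain ⟨c, rfl⟩ := Submodule.Quotient.mk_surjective _ c
        refine Prod.ext (Subtype.ext ?_) (Prod.ext ?_ ?_)
        · simp [r0, Module.End.mul_apply]
        · show W01.mapQ W01 (r1 (g * g')) (hr1 _) (Submodule.Quotient.mk b) =
            W01.mapQ W01 (r1 g) (hr1 g) (W01.mapQ W01 (r1 g') (hr1 g') (Submodule.Quotient.mk b))
          rw [Submodule.mapQ_apply, Submodule.mapQ_apply, Submodule.mapQ_apply]
          exact congrArg _ (Subtype.ext (by simp [r1, Module.End.mul_apply]))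
        · show W1.mapQ W1 (ρ (g * g')) (hr2 _) (Submodule.Quotient.mk c) =
            W1.mapQ W1 (ρ g) (hr2 g) (W1.mapQ W1 (ρ g') (hr2 g') (Submodule.Quotient.mk c))
          rw [Submodule.mapQ_apply, Submodule.mapQ_apply, Submodule.mapQ_apply, map_mul,
            Module.End.mul_apply] }
  refine ⟨W0 × (W1 ⧸ W01) × (W ⧸ W1), inferInstance, inferInstance, inferInstance, ρ', ?_, ?_⟩
  · rw [← MonoidHom.ker_eq_bot_iff, eq_bot_iff, ← hO]
    refine PSolv.le_pCore inferInstance fun x => ⟨2, Subtype.ext ?_⟩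
    set g : H := x.1 with hg
    have hx : ρ' g = 1 := x.2
    set D := ρ g - 1 with hD
    have e0 : ∀ w ∈ W0, D w = 0 := fun w hw => by
      have := congrArg (fun p : W0 × (W1 ⧸ W01) × (W ⧸ W1) => (p.1 : W))
        (LinearMap.congr_fun hx (⟨w, hw⟩, 0, 0))
      show ρ g w - w = 0
      exact sub_eq_zero.2 this
    have e1 : ∀ w ∈ W1, D w ∈ W0 := fun w hw => by
      have := congrArg (fun p : W0 × (W1 ⧸ W01) × (W ⧸ W1) => p.2.1)
        (LinearMap.congr_fun hx (0, Submodule.Quotient.mk (⟨w, hw⟩ : W1), 0))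
      exact (Submodule.Quotient.eq W01).1 this
    have e2 : ∀ w, D w ∈ W1 := fun w => by
      have := congrArg (fun p : W0 × (W1 ⧸ W01) × (W ⧸ W1) => p.2.2)
        (LinearMap.congr_fun hx (0, 0, Submodule.Quotient.mk w))
      exact (Submodule.Quotient.eq W1).1 this
    have h4 : D ^ 2 ^ 2 = 0 := LinearMap.ext fun w => by
      show D (D (D (D w))) = 0
      rw [e0 _ (e1 _ (e2 w)), map_zero]
    rw [SubmonoidClass.coe_pow, OneMemClass.coe_one, ← hg]
    rcases subsingleton_or_nontrivial W with hW | hW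
    · exact hinj (LinearMap.ext fun w => Subsingleton.elim _ _)
    haveI : CharP (Module.End (ZMod 2) W) 2 :=
      charP_of_injective_algebraMap (algebraMap (ZMod 2) (Module.End (ZMod 2) W)).injective 2
    refine hinj ?_
    rw [hD, sub_pow_char_pow_of_commute _ _ (Commute.one_right _), one_pow, sub_eq_zero, ← map_pow] at h4
    rw [h4, map_one]
  · intro g hg
    obtain ⟨k0, k1, k2⟩ := hn g hg
    set D := ρ g - 1 with hD
    have hiter : ∀ (i : ℕ) (a : W0) (b : W1) (c : W),
        ∃ (a' : W0) (b' : W1), (a' : W) = (D ^ i) (a : W) ∧ (b' : W) = (D ^ i) (b : W) ∧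
          ((ρ' g - 1) ^ i) (a, Submodule.Quotient.mk b, Submodule.Quotient.mk c) =
            (a', Submodule.Quotient.mk b', Submodule.Quotient.mk ((D ^ i) c)) := by
      intro i
      induction i with
      | zero => intro a b c; exact ⟨a, b, by simp, by simp, by simp⟩
      | succ i ih =>
        intro a b c
        obtain ⟨a', b', ha, hb, he⟩ := ih a b c
        refine ⟨r0 g a' - a', r1 g b' - b', ?_, ?_, ?_⟩
        · rw [pow_succ', Module.End.mul_apply, ← ha]; rfl
        · rw [pow_succ', Module.End.mul_apply, ← hb]; rfl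
        · rw [pow_succ', Module.End.mul_apply, he, pow_succ', Module.End.mul_apply]
          rfl
    refine LinearMap.ext fun ⟨a, b, c⟩ => ?_
    obtain ⟨b, rfl⟩ := Submodule.Quotient.mk_surjective _ b
    obtain ⟨c, rfl⟩ := Submodule.Quotient.mk_surjective _ c
    obtain ⟨a', b', ha, hb, he⟩ := hiter n a b c
    rw [he]
    refine Prod.ext (Subtype.ext ?_) (Prod.ext ?_ ?_)
    · rw [ha, k0 _ a.2]; rfl
    · exact (Submodule.Quotient.mk_eq_zero W01).2 (show (b' : W) ∈ W0 from hb.symm ▸ k1 _ b.2)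
    · exact (Submodule.Quotient.mk_eq_zero W1).2 (k2 c)

/-- The vectors of a module subgroup lying in a subgroup. -/
noncomputable def modSub {X : Type*} [Group X] {V : Subgroup X} [V.Normal] (hV : HH.IsModuleSubgroup 2 V)
    (E : Subgroup X) : Submodule (ZMod 2) (HH.Mod hV) :=
  AddSubgroup.toZModSubmodule 2
    { carrier := {w | w.val ∈ E}
      add_mem' := fun {a b} ha hb => by
        show (a + b).val ∈ E
        rw [HH.Mod.val_add]; exact E.mul_mem ha hb
      zero_mem' := by
        show (0 : HH.Mod hV).val ∈ E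
        rw [HH.Mod.val_zero]; exact E.one_mem
      neg_mem' := fun {a} ha => by
        show (-a).val ∈ E
        have h : (-a).val * a.val = 1 := by rw [← HH.Mod.val_add, neg_add_cancel, HH.Mod.val_zero]
        rw [eq_inv_of_mul_eq_one_left h]; exact E.inv_mem ha }

theorem mem_modSub {X : Type*} [Group X] {V : Subgroup X} [V.Normal] {hV : HH.IsModuleSubgroup 2 V}
    {E : Subgroup X} {w : HH.Mod hV} : w ∈ modSub hV E ↔ w.val ∈ E := Iff.rfl

/-- The 2-elements of `O_{2',2}` can be moved into a Sylow subgroup by `O_{2'}`. -/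
theorem exists_conj_mem_sylow {G : Type*} [Group G] [Finite G] (S : Sylow 2 G) {x : G}
    (hx : ∃ i, orderOf x = 2 ^ i) (hxL : x ∈ pPrimePCore 2 G) :
    ∃ o ∈ pPrimeCore 2 G, o * x * o⁻¹ ∈ (S : Subgroup G) := by
  haveI := Fact.mk Nat.prime_two
  obtain ⟨i, hi⟩ := hx
  obtain ⟨o, ho, T'', hT'', hle, hmem⟩ := exists_two_subgroup S.2 (y := x) (a := i)
    (hi ▸ pow_orderOf_eq_one x)
  refine ⟨o, ho, ?_⟩
  set π := QuotientGroup.mk' (pPrimeCore 2 G) with hπ
  haveI : (pPrimePCore 2 G).Normal := PSolv.pPrimePCore_normal 2 G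
  have hL : o * x * o⁻¹ ∈ pPrimePCore 2 G := (inferInstance : (pPrimePCore 2 G).Normal).conj_mem _ hxL o
  obtain ⟨s, hs, hse⟩ : π (o * x * o⁻¹) ∈ (S : Subgroup G).map π :=
    PSolv.pCore_le_sylow (S.mapSurjective (QuotientGroup.mk'_surjective _)) hL
  have hsL : s ∈ pPrimePCore 2 G := show π s ∈ pCore 2 _ from hse.symm ▸ hL
  have h1 : o * x * o⁻¹ * s⁻¹ = 1 := by
    refine LocalP.eq_one_of_mem_isPGroup hT'' (mul_mem hmem (inv_mem (hle ⟨hs, hsL⟩))) ?_
    refine Element.coprime_orderOf_of_mem (PSolv.coprime_card_pPrimeCore 2 G) ?_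
    rw [← QuotientGroup.ker_mk' (pPrimeCore 2 G), MonoidHom.mem_ker, map_mul, map_inv, ← hπ, ← hse,
      mul_inv_cancel]
  rw [mul_inv_eq_one.1 h1]
  exact hs

set_option maxHeartbeats 1600000 in
/-- **The exceptional modules**: without free summands of length `2 ^ e` the 2-length is at most
`e - 1`. -/
theorem pLengthLE_of_exceptional : ∀ (e : ℕ) (G : Type u) [Group G] [Finite G] [Group.IsSolvable G]
    (V : Type u) [AddCommGroup V] [Module (ZMod 2) V] [FiniteDimensional (ZMod 2) V]
    (ρ : G →* Module.End (ZMod 2) V), pCore 2 G = ⊥ → Function.Injective ρ →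
    (∀ g : G, (∃ i, orderOf g = 2 ^ i) → g ^ 2 ^ e = 1 ∧ (ρ g - 1) ^ (2 ^ e - 1) = 0) →
    PLengthLE 2 (e - 1) G := by
  haveI := Fact.mk Nat.prime_two
  have hp := Nat.prime_two
  intro e
  induction e with
  | zero =>
    intro G _ _ _ V _ _ _ ρ _ hinj hall
    refine PLength.pLengthLE_zero_of_coprime ((Nat.Prime.coprime_iff_not_dvd hp).2 (fun h => ?_)).symm
    obtain ⟨x, hx⟩ := exists_prime_orderOf_dvd_card' 2 h
    have := (hall x ⟨1, by rw [hx, pow_one]⟩).1
    rw [pow_zero, pow_one] at this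
    rw [this, orderOf_one] at hx
    omega
  | succ n ih =>
    intro G _ _ _ V _ _ _ ρ hO2 hinj hall
    rcases Nat.eq_zero_or_pos n with rfl | hn
    · refine PLength.pLengthLE_zero_of_coprime ((Nat.Prime.coprime_iff_not_dvd hp).2 (fun h => ?_)).symm
      obtain ⟨x, hx⟩ := exists_prime_orderOf_dvd_card' 2 h
      have h1 := (hall x ⟨1, by rw [hx, pow_one]⟩).2
      rw [show 2 ^ (0 + 1) - 1 = 1 from rfl, pow_one, sub_eq_zero] at h1
      rw [hinj (h1.trans (map_one ρ).symm), orderOf_one] at hx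
      omega
    rw [Nat.add_sub_cancel]
    -- over the algebraic closure
    let F := AlgebraicClosure (ZMod 2)
    haveI : CharP F 2 := charP_of_injective_algebraMap (algebraMap (ZMod 2) F).injective 2
    let ρF : G →* Module.End F (F ⊗[ZMod 2] V) :=
      (Module.End.baseChangeHom (ZMod 2) F V).toMonoidHom.comp ρ
    have hinjF : Function.Injective ρF := fun a b h => hinj (Gross.baseChange_injective F h)
    have hallF : HasNoFree ρF (n + 1) := by
      intro g hg
      refine ⟨(hall g hg).1, fun v => ?_⟩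
      have hbase : ∑ k ∈ Finset.range (2 ^ (n + 1)), (ρ g) ^ k = 0 := by
        have hpoly := congrArg (Polynomial.aeval (ρ g)) (HH.sub_one_pow_pred (F := ZMod 2) 2 (n + 1))
        simp only [map_pow, map_sub, Polynomial.aeval_X, map_one, map_sum] at hpoly
        rw [← hpoly]; exact (hall g hg).2
      have h2 := congrArg (Module.End.baseChangeHom (ZMod 2) F V) hbase
      rw [map_sum, map_zero] at h2
      simp only [map_pow] at h2
      exact LinearMap.congr_fun h2 v
    have hgross : ∀ x : G, (∃ i, orderOf x = 2 ^ i) → x ^ 2 ^ n ∈ pPrimePCore 2 G := fun x hx => by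
      have := Gross.pow_mem_pPrimePCore_of_exceptional hO2 hinjF hallF hx
      rwa [Nat.add_sub_cancel] at this
    -- the quotients
    set O := pPrimeCore 2 G with hO
    set f := QuotientGroup.mk' O with hf
    have hfs : Function.Surjective f := QuotientGroup.mk'_surjective O
    set P3 := pCore 2 (G ⧸ O) with hP3
    haveI hP3n : P3.Normal := by haveI := PSolv.pCore_characteristic 2 (G ⧸ O); infer_instance
    haveI : Group.IsSolvable (G ⧸ O) := Group.isSolvable_of_surjective hfs
    obtain ⟨F2, hF2n, hF2P, hVexp, hVcomm, hC, hcore⟩ := S3788.exists_reduction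
      (PSolv.isPSolvable_of_isSolvable (inferInstance : Group.IsSolvable (G ⧸ O)))
      (PSolv.pPrimeCore_quotient_eq_bot 2 G)
    set π := QuotientGroup.mk' F2 with hπ
    have hπs : Function.Surjective π := QuotientGroup.mk'_surjective F2
    set V3 := P3.map π with hV3
    haveI : V3.Normal := hP3n.map π hπs
    have hO3 : pCore 2 (((G ⧸ O) ⧸ F2) ⧸ V3) = ⊥ := by
      have key : ∀ W : Subgroup ((G ⧸ O) ⧸ F2), W = pCore 2 ((G ⧸ O) ⧸ F2) → ∀ [W.Normal],
          pCore 2 (((G ⧸ O) ⧸ F2) ⧸ W) = ⊥ := by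
        rintro W rfl _; exact PSolv.pCore_quotient_eq_bot 2 _
      exact key V3 hcore
    have hMod : HH.IsModuleSubgroup 2 V3 :=
      ⟨⟨⟨fun a b => Subtype.ext (hVcomm a a.2 b b.2)⟩⟩, hVexp⟩
    obtain ⟨ρ3, hρ3⟩ := HH.exists_conjRep hMod
    haveI : Module.Finite (ZMod 2) (HH.Mod hMod) := Module.Finite.of_finite
    set φ := π.comp f with hφ
    set ω := (QuotientGroup.mk' V3).comp φ with hω
    have hωs : Function.Surjective ω :=
      (QuotientGroup.mk'_surjective V3).comp (hπs.comp hfs)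
    haveI : Group.IsSolvable (((G ⧸ O) ⧸ F2) ⧸ V3) := Group.isSolvable_of_surjective hωs
    -- the subgroup generated by the powers
    set Pw : Set (G ⧸ O) := {a | ∃ x, (∃ i, orderOf x = 2 ^ i) ∧ f (x ^ 2 ^ n) = a} with hPw
    set E3 := closure Pw with hE3
    have hE3P : E3 ≤ P3 := (closure_le _).2 (by rintro _ ⟨x, hx, rfl⟩; exact hgross x hx)
    haveI hE3n : E3.Normal := by
      refine ⟨fun a ha g => ?_⟩
      obtain ⟨g, rfl⟩ := hfs g
      have hle : E3 ≤ E3.comap (MulAut.conj (f g)).toMonoidHom := by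
        refine (closure_le _).2 ?_
        rintro _ ⟨x, ⟨i, hi⟩, rfl⟩
        refine subset_closure ⟨g * x * g⁻¹, ⟨i, ?_⟩, ?_⟩
        · rw [← hi]; exact orderOf_injective (MulAut.conj g).toMonoidHom (MulAut.conj g).injective x
        · simp [conj_pow]
      exact hle ha
    let Z3 : Subgroup (G ⧸ O) :=
      { carrier := {z | z ∈ E3 ∧ z * z = 1 ∧ ∀ a ∈ E3, Commute z a}
        one_mem' := ⟨one_mem _, one_mul 1, fun a _ => Commute.one_left a⟩
        mul_mem' := fun {a b} ⟨ha, ha2, hac⟩ ⟨hb, hb2, hbc⟩ => by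
          refine ⟨mul_mem ha hb, ?_, fun c hc => (hac c hc).mul_left (hbc c hc)⟩
          rw [show a * b * (a * b) = a * (b * a) * b by group, ← (hac b hb).eq,
            show a * (a * b) * b = a * a * (b * b) by group, ha2, hb2, one_mul]
        inv_mem' := fun {a} ⟨ha, ha2, hac⟩ =>
          ⟨inv_mem ha, by rw [← mul_inv_rev, ha2, inv_one], fun c hc => (hac c hc).inv_left⟩ }
    haveI hZ3n : Z3.Normal := by
      refine ⟨fun z hz g => ⟨hE3n.conj_mem _ hz.1 g, ?_, fun a ha => ?_⟩⟩
      · rw [show g * z * g⁻¹ * (g * z * g⁻¹) = g * (z * z) * g⁻¹ by group, hz.2.1, mul_one, mul_inv_cancel]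
      · have h := (hz.2.2 (g⁻¹ * a * g⁻¹⁻¹) (hE3n.conj_mem _ ha g⁻¹)).map (MulAut.conj g).toMonoidHom
        simp only [MulEquiv.coe_toMonoidHom, MulAut.conj_apply] at h
        rwa [show g * (g⁻¹ * a * g⁻¹⁻¹) * g⁻¹ = a by group] at h
    set W1 := modSub hMod (E3.map π)
    set W0 := modSub hMod (Z3.map π)
    have hinv : ∀ (E : Subgroup (G ⧸ O)), E.Normal → ∀ g, ∀ w ∈ modSub hMod (E.map π),
        ρ3 g w ∈ modSub hMod (E.map π) := by
      intro E hE g w hw
      obtain ⟨a, rfl⟩ := QuotientGroup.mk'_surjective V3 g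
      rw [mem_modSub] at hw ⊢
      rw [show QuotientGroup.mk' V3 a = (a : ((G ⧸ O) ⧸ F2) ⧸ V3) from rfl, hρ3]
      exact (hE.map π hπs).conj_mem _ hw a
    -- the norms
    have hkey : ∀ g : ((G ⧸ O) ⧸ F2) ⧸ V3, (∃ i, orderOf g = 2 ^ i) →
        g ^ 2 ^ n = 1 ∧ (∀ w ∈ W0, ((ρ3 g - 1 : Module.End (ZMod 2) (HH.Mod hMod)) ^ (2 ^ n - 1)) w = 0) ∧
        (∀ w ∈ W1, ((ρ3 g - 1 : Module.End (ZMod 2) (HH.Mod hMod)) ^ (2 ^ n - 1)) w ∈ W0) ∧
        (∀ w, ((ρ3 g - 1 : Module.End (ZMod 2) (HH.Mod hMod)) ^ (2 ^ n - 1)) w ∈ W1) := by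
      rintro g ⟨i, hi⟩
      obtain ⟨x, hxg, hxi⟩ := Element.exists_pElement_preimage hp ω hωs hi
      obtain ⟨S, hS⟩ := ((IsPGroup.iff_card (p := 2) (G := zpowers x)).2
        (by obtain ⟨j, hj⟩ := hxi; exact ⟨j, by rw [Nat.card_zpowers, hj]⟩)).exists_le_sylow
      have hxS : x ∈ (S : Subgroup G) := hS (mem_zpowers x)
      have hSp : IsPGroup 2 (S : Subgroup G) := S.2
      have hone : ∀ {s : G}, s ∈ (S : Subgroup G) → f s = 1 → s = 1 := fun {s} hs hfs1 =>
        LocalP.eq_one_of_mem_isPGroup hSp hs (Element.coprime_orderOf_of_mem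
          (PSolv.coprime_card_pPrimeCore 2 G) ((QuotientGroup.eq_one_iff s).1 hfs1))
      have hin : ∀ {t : G}, t ∈ tset (S : Subgroup G) (n + 1) → f t ∈ E3 := by
        rintro t ⟨-, y, hy, rfl⟩
        exact subset_closure ⟨y, hy, by rw [Nat.add_sub_cancel]⟩
      have hgen : ∀ y : G, (∃ j, orderOf y = 2 ^ j) →
          ∃ t ∈ tset (S : Subgroup G) (n + 1), f t = f (y ^ 2 ^ n) := by
        intro y hy
        have hy' : ∃ j, orderOf (y ^ 2 ^ n) = 2 ^ j := by
          obtain ⟨j, hj⟩ := hy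
          obtain ⟨k, -, hk⟩ := (Nat.dvd_prime_pow hp).1 (hj ▸ orderOf_pow_dvd (2 ^ n) : orderOf (y ^ 2 ^ n) ∣ 2 ^ j)
          exact ⟨k, hk⟩
        obtain ⟨o, ho, hoS⟩ := exists_conj_mem_sylow S hy' (hgross y hy)
        refine ⟨_, ⟨hoS, o * y * o⁻¹, ?_, by rw [Nat.add_sub_cancel, conj_pow]⟩, ?_⟩
        · obtain ⟨j, hj⟩ := hy
          exact ⟨j, by rw [← hj]; exact orderOf_injective (MulAut.conj o).toMonoidHom (MulAut.conj o).injective y⟩
        · rw [map_mul, map_mul, map_inv, show f o = 1 from (QuotientGroup.eq_one_iff o).2 ho, one_mul,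
            inv_one, mul_one]
      have hES : E3 ≤ (esub (S : Subgroup G) (n + 1)).map f := by
        refine (closure_le _).2 ?_
        rintro _ ⟨y, hy, rfl⟩
        obtain ⟨t, ht, hte⟩ := hgen y hy
        exact ⟨t, mem_esub ht, hte⟩
      have hEin : ∀ {s : G}, s ∈ esub (S : Subgroup G) (n + 1) → f s ∈ E3 := fun {s} hs => by
        have hle : esub (S : Subgroup G) (n + 1) ≤ E3.comap f := (closure_le _).2 fun t ht => hin ht
        exact hle hs
      have hZin : ∀ {z : G}, z ∈ zsub (S : Subgroup G) (n + 1) → f z ∈ Z3 := by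
        rintro z ⟨hz, hz2, hzc⟩
        refine ⟨hEin hz, by rw [← map_mul, hz2, map_one], fun a ha => ?_⟩
        obtain ⟨s, hs, rfl⟩ := hES ha
        exact (commute_esub hzc hs).map f
      -- the norm is `(u x) ^ h x ^ (-h)`
      have hnorm : ∀ (w : HH.Mod hMod) (v : G), φ v = w.val →
          (((ρ3 g - 1 : Module.End (ZMod 2) (HH.Mod hMod)) ^ (2 ^ n - 1)) w).val = φ ((v * x) ^ 2 ^ n * (x ^ 2 ^ n)⁻¹) := by
        intro w v hv
        have hpoly := congrArg (Polynomial.aeval (ρ3 g)) (HH.sub_one_pow_pred (F := ZMod 2) 2 n)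
        simp only [map_pow, map_sub, Polynomial.aeval_X, map_one, map_sum] at hpoly
        rw [hpoly, LinearMap.sum_apply, HH.Mod.val_sum, map_mul, map_inv, map_pow, map_pow, map_mul, hv,
          HH.mul_pow_eq_norm, mul_inv_cancel_right]
        congr 1
        refine List.map_congr_left fun k _ => ?_
        rw [← map_pow, ← hxg, hω, MonoidHom.comp_apply, QuotientGroup.mk'_apply, ← QuotientGroup.mk_pow, hρ3]
      have hexp : ∀ y ∈ (S : Subgroup G), (y ^ 2 ^ n) * (y ^ 2 ^ n) = 1 := fun y hy => by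
        rw [← pow_add, ← Nat.two_mul, ← pow_succ', (hall y (exists_orderOf_eq hSp hy)).1]
      refine ⟨?_, ?_, ?_, ?_⟩
      · rw [← hxg, ← map_pow, hω, MonoidHom.comp_apply, hφ, MonoidHom.comp_apply]
        exact (QuotientGroup.eq_one_iff _).2 (mem_map_of_mem π (hgross x hxi))
      · intro w hw
        obtain ⟨a, ⟨haE, ha2, hac⟩, haw⟩ := mem_modSub.1 hw
        obtain ⟨s, hs, rfl⟩ := hES haE
        have hsZ : s ∈ zsub (S : Subgroup G) (n + 1) := by
          refine ⟨hs, hone (mul_mem (esub_le hs) (esub_le hs)) (by rw [map_mul, ha2]), fun t ht => ?_⟩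
          refine commutatorElement_eq_one_iff_mul_comm.1 (hone ?_ ?_)
          · rw [commutatorElement_def]
            exact mul_mem (mul_mem (mul_mem (esub_le hs) ht.1) (inv_mem (esub_le hs))) (inv_mem ht.1)
          · rw [map_commutatorElement]
            exact commutatorElement_eq_one_iff_mul_comm.2 (hac _ (hin ht)).eq
        have h := mul_pow_eq_pow hO2 hinjF hallF (by omega) hSp hxS hsZ
        rw [Nat.add_sub_cancel] at h
        apply HH.Mod.ext
        rw [hnorm w s haw, h, mul_inv_cancel, map_one, HH.Mod.val_zero]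
      · intro w hw
        obtain ⟨a, haE, haw⟩ := mem_modSub.1 hw
        clear hw
        revert w
        have : ∀ a ∈ closure Pw, ∀ w : HH.Mod hMod, π a = w.val → ((ρ3 g - 1 : Module.End (ZMod 2) (HH.Mod hMod)) ^ (2 ^ n - 1)) w ∈ W0 := by
          intro a ha
          induction ha using closure_induction with
          | mem a ha =>
            obtain ⟨y, hy, rfl⟩ := ha
            intro w hw
            obtain ⟨t, ht, hte⟩ := hgen y hy
            rw [mem_modSub, hnorm w t (by rw [hφ, MonoidHom.comp_apply, hte, hw])]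
            refine mem_map_of_mem π (hZin ?_)
            have htx : t * x ∈ (S : Subgroup G) := mul_mem ht.1 hxS
            have hh : ∀ y ∈ (S : Subgroup G), y ^ 2 ^ n ∈ tset (S : Subgroup G) (n + 1) := fun y hy => by
              have := pow_mem_tset (e := n + 1) hSp hy
              rwa [Nat.add_sub_cancel] at this
            have hc : ∀ t3 ∈ tset (S : Subgroup G) (n + 1),
                Commute ((t * x) ^ 2 ^ n * (x ^ 2 ^ n)⁻¹) t3 := fun t3 ht3 => by
              have := commute_pow_div hO2 hinjF hallF (by omega) hSp hxS ht ht3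
              rwa [Nat.add_sub_cancel] at this
            refine ⟨mul_mem (mem_esub (hh _ htx)) (inv_mem (mem_esub (hh _ hxS))), ?_, hc⟩
            have hB := (hexp x hxS)
            have hA := (hexp _ htx)
            have hcB := hc _ (hh _ hxS)
            set A := (t * x) ^ 2 ^ n
            set Bx := x ^ 2 ^ n
            rw [inv_eq_of_mul_eq_one_right hB] at hcB ⊢
            calc A * Bx * (A * Bx) = A * (Bx * (A * Bx)) := by group
              _ = A * (A * Bx * Bx) := by rw [hcB.eq]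
              _ = A * A * (Bx * Bx) := by group
              _ = 1 := by rw [hA, hB, one_mul]
          | one =>
            intro w hw
            have : w = 0 := HH.Mod.ext (by rw [← hw, map_one, HH.Mod.val_zero])
            rw [this, map_zero]; exact zero_mem _
          | mul a b ha hb iha ihb =>
            intro w hw
            have haV : π a ∈ V3 := mem_map_of_mem π (hE3P ha)
            have hbV : π b ∈ V3 := mem_map_of_mem π (hE3P hb)
            have : w = HH.Mod.mk hMod _ haV + HH.Mod.mk hMod _ hbV :=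
              HH.Mod.ext (by rw [HH.Mod.val_add, HH.Mod.val_mk, HH.Mod.val_mk, ← hw, map_mul])
            rw [this, map_add]
            exact add_mem (iha _ rfl) (ihb _ rfl)
          | inv a ha iha =>
            intro w hw
            have haV : π a ∈ V3 := mem_map_of_mem π (hE3P ha)
            have : HH.Mod.mk hMod _ haV + w = 0 :=
              HH.Mod.ext (by rw [HH.Mod.val_add, HH.Mod.val_mk, ← hw, map_inv, mul_inv_cancel, HH.Mod.val_zero])
            rw [eq_neg_of_add_eq_zero_right this, map_neg]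
            exact neg_mem (iha _ rfl)
        exact fun w haw => this a haE w haw
      · intro w
        obtain ⟨a, ha, haw⟩ := (w.val_mem : w.val ∈ P3.map π)
        obtain ⟨v, hv, rfl⟩ : a ∈ (S : Subgroup G).map f := PSolv.pCore_le_sylow (S.mapSurjective hfs) ha
        rw [mem_modSub, hnorm w v haw]
        refine mem_map_of_mem π ?_
        rw [map_mul, map_inv]
        exact mul_mem (subset_closure ⟨_, exists_orderOf_eq hSp (mul_mem hv hxS), rfl⟩)
          (inv_mem (subset_closure ⟨x, hxi, rfl⟩))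
    obtain ⟨U, _, _, _, ρ', hinj', hexc'⟩ := exists_rep_of_filtration hO3
      (HH.conjRep_injective hC hρ3) (hinv Z3 hZ3n) (hinv E3 hE3n) (2 ^ n - 1) fun g hg => (hkey g hg).2
    have hH := ih (((G ⧸ O) ⧸ F2) ⧸ V3) U ρ' hO3 hinj' fun g hg => ⟨(hkey g hg).1, hexc' g hg⟩
    -- assemble
    set ψ : (G ⧸ O) ⧸ P3 →* ((G ⧸ O) ⧸ F2) ⧸ V3 := QuotientGroup.lift P3 ((QuotientGroup.mk' V3).comp π)
      (fun a ha => (QuotientGroup.eq_one_iff _).2 (mem_map_of_mem π ha)) with hψ
    have hψb : Function.Bijective ψ := by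
      refine ⟨(injective_iff_map_eq_one ψ).2 fun a => ?_, fun b => ?_⟩
      · induction a using QuotientGroup.induction_on with
        | H a =>
          intro ha
          refine (QuotientGroup.eq_one_iff a).2 ?_
          have h1 : a ∈ (P3.map π).comap π := (QuotientGroup.eq_one_iff (π a)).1 ha
          rw [comap_map_eq, QuotientGroup.ker_mk', sup_eq_left.2 hF2P] at h1
          exact h1
      · obtain ⟨a, rfl⟩ := ((QuotientGroup.mk'_surjective V3).comp hπs) b
        exact ⟨a, rfl⟩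
    have h3 : PLengthLE 2 (n - 1) ((G ⧸ O) ⧸ P3) :=
      PSolv.pLengthLE_of_surjective (MulEquiv.ofBijective ψ hψb).symm.toMonoidHom
        (MulEquiv.ofBijective ψ hψb).symm.surjective hH
    have h4 : PLengthLE 2 (1 + (n - 1)) (G ⧸ O) :=
      PLength.pLengthLE_add P3 (PLength.pLengthLE_of_isPGroup (PSolv.isPGroup_pCore 2 _)) h3
    have h5 := PLength.pLengthLE_add O (a := 0)
      (PLength.pLengthLE_zero_of_coprime (PSolv.coprime_card_pPrimeCore 2 G)) h4
    rwa [zero_add, show 1 + (n - 1) = n by omega] at h5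

/-- **The 2-length of a solvable group is at most the exponent of a Sylow 2-subgroup.** -/
theorem pLengthLE_exponent (e : ℕ) (G : Type u) [Group G] [Finite G] [Group.IsSolvable G]
    (hexp : ∀ x : G, (∃ j, orderOf x = 2 ^ j) → x ^ 2 ^ e = 1) : PLengthLE 2 e G := by
  haveI := Fact.mk Nat.prime_two
  have hp := Nat.prime_two
  set N := pPrimeCore 2 G with hN
  haveI : Group.IsSolvable (G ⧸ N) := Group.isSolvable_of_surjective (QuotientGroup.mk'_surjective N)
  rcases Nat.eq_zero_or_pos e with rfl | he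
  · refine PLength.pLengthLE_zero_of_coprime ((Nat.Prime.coprime_iff_not_dvd hp).2 (fun h => ?_)).symm
    obtain ⟨x, hx⟩ := exists_prime_orderOf_dvd_card' 2 h
    have := hexp x ⟨1, by rw [hx, pow_one]⟩
    rw [pow_zero, pow_one] at this
    rw [this, orderOf_one] at hx
    omega
  have hexp' : ∀ x : G ⧸ N, (∃ j, orderOf x = 2 ^ j) → x ^ 2 ^ e = 1 := by
    rintro x ⟨j, hj⟩
    obtain ⟨y, hy, hyj⟩ := Element.exists_pElement_preimage hp (QuotientGroup.mk' N) (QuotientGroup.mk'_surjective N) hj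
    rw [← hy, ← map_pow, hexp y hyj, map_one]
  obtain ⟨F, hFn, hFP, hVexp, hVcomm, hC, hcore⟩ := S3788.exists_reduction
    (PSolv.isPSolvable_of_isSolvable (inferInstance : Group.IsSolvable (G ⧸ N)))
    (PSolv.pPrimeCore_quotient_eq_bot 2 G)
  set P := pCore 2 (G ⧸ N) with hP
  set π := QuotientGroup.mk' F with hπ
  have hπs : Function.Surjective π := QuotientGroup.mk'_surjective F
  set V := P.map π with hV
  haveI hPn : P.Normal := by haveI := PSolv.pCore_characteristic 2 (G ⧸ N); infer_instance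
  haveI : V.Normal := hPn.map π hπs
  have hMod : HH.IsModuleSubgroup 2 V :=
    ⟨⟨⟨fun a b => Subtype.ext (hVcomm a a.2 b b.2)⟩⟩, hVexp⟩
  have hexpX : ∀ y : (G ⧸ N) ⧸ F, (∃ j, orderOf y = 2 ^ j) → y ^ 2 ^ e = 1 := by
    rintro y ⟨j, hj⟩
    obtain ⟨z, hz, hzj⟩ := Element.exists_pElement_preimage hp π hπs hj
    rw [← hz, ← map_pow, hexp' z hzj, map_one]
  set φ := (QuotientGroup.mk' V).comp π with hφ
  have hker : φ.ker = P := by
    rw [hφ, ← MonoidHom.comap_ker, QuotientGroup.ker_mk', hV, Subgroup.comap_map_eq,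
      QuotientGroup.ker_mk', sup_eq_left]
    exact hFP
  set ψ : (G ⧸ N) ⧸ P →* ((G ⧸ N) ⧸ F) ⧸ V := QuotientGroup.lift P φ hker.ge with hψ
  have hψi : Function.Injective ψ := by
    rw [injective_iff_map_eq_one]
    intro a
    induction a using QuotientGroup.induction_on with
    | H a => intro ha; exact (QuotientGroup.eq_one_iff a).2 (hker.le ha)
  obtain ⟨ρ, hρ⟩ := HH.exists_conjRep hMod
  haveI : Module.Finite (ZMod 2) (HH.Mod hMod) := Module.Finite.of_finite
  haveI : Group.IsSolvable ((G ⧸ N) ⧸ P) :=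
    Group.isSolvable_of_surjective (QuotientGroup.mk'_surjective P)
  have hall : ∀ g : (G ⧸ N) ⧸ P, (∃ i, orderOf g = 2 ^ i) →
      g ^ 2 ^ e = 1 ∧ ((ρ.comp ψ) g - 1) ^ (2 ^ e - 1) = 0 := by
    rintro g ⟨i, hi⟩
    obtain ⟨z, hz, hzj⟩ := Element.exists_pElement_preimage hp (QuotientGroup.mk' V)
      (QuotientGroup.mk'_surjective V) (show orderOf (ψ g) = 2 ^ i by rw [orderOf_injective ψ hψi, hi])
    refine ⟨hψi (by rw [map_pow, map_one, ← hz, ← map_pow, hexpX z hzj, map_one]), ?_⟩
    rw [MonoidHom.comp_apply, ← hz, QuotientGroup.mk'_apply]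
    exact HHTwo.sub_one_pow_of_exponent hMod hexpX hρ hzj
  have h1 := pLengthLE_of_exceptional e ((G ⧸ N) ⧸ P) (HH.Mod hMod) (ρ.comp ψ)
    (PSolv.pCore_quotient_eq_bot 2 (G ⧸ N)) ((HH.conjRep_injective hC hρ).comp hψi) hall
  have h2 : PLengthLE 2 (1 + (e - 1)) (G ⧸ N) :=
    PLength.pLengthLE_add P (PLength.pLengthLE_of_isPGroup (PSolv.isPGroup_pCore 2 _)) h1
  have h6 := PLength.pLengthLE_add N (a := 0)
    (PLength.pLengthLE_zero_of_coprime (PSolv.coprime_card_pPrimeCore 2 G)) h2
  rwa [zero_add, show 1 + (e - 1) = e by omega] at h6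

end Cfsg.Agent.TwoLen
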