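import Cfsg.Prelude.Def_Local
import Mathlib.GroupTheory.PGroup
import Mathlib.GroupTheory.Nilpotent

/-!
# 2-soluble groups are soluble, given the odd order theorem
-/

set_option autoImplicit false
set_option linter.style.haveILetI false

namespace Cfsg.Agent.TwoLen

open Subgroup

universe u

theorem isSolvable_of_isPSolvable_two
    (hodd : ∀ (Q : Type u) [Group Q] [Finite Q], Odd (Nat.card Q) → Group.IsSolvable Q)
    {G : Type u} [Group G] [Finite G] (hG : Cfsg.IsPSolvable 2 G) : Group.IsSolvable G := by
  haveI := Fact.mk Nat.prime_two
  obtain ⟨n, H, h0, hlast, hmono, hnorm, hfac⟩ := hG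
  have key : ∀ i : Fin (n + 1), Group.IsSolvable (H i) := by
    intro i
    induction i using Fin.induction with
    | zero =>
      rw [h0]
      infer_instance
    | succ i ih =>
      have hle : H i.castSucc ≤ H i.succ := hmono (Fin.castSucc_le_succ i)
      haveI : ((H i.castSucc).subgroupOf (H i.succ)).Normal := (hnorm i.castSucc).comap _
      set N := (H i.castSucc).subgroupOf (H i.succ)
      haveI : Group.IsSolvable N :=
        haveI := ih
        Group.isSolvable_of_surjective (f := (Subgroup.subgroupOfEquivOfLe hle).symm.toMonoidHom)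
          (Subgroup.subgroupOfEquivOfLe hle).symm.surjective
      have hcard : (H i.castSucc).relIndex (H i.succ) = Nat.card (↥(H i.succ) ⧸ N) :=
        Subgroup.index_eq_card _
      haveI : Group.IsSolvable (↥(H i.succ) ⧸ N) := by
        rcases hfac i with ⟨m, hm⟩ | hc
        · haveI : Group.IsNilpotent (↥(H i.succ) ⧸ N) :=
            (IsPGroup.of_card (p := 2) (n := m) (hcard.symm.trans hm)).isNilpotent
          infer_instance
        · refine hodd _ ?_
          rw [← hcard]
          exact Nat.coprime_two_right.1 hc
      exact Group.isSolvable_of_ker_le_range N.subtype (QuotientGroup.mk' N) (by simp)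
  haveI := key (Fin.last n)
  exact Group.isSolvable_of_surjective (f := (H (Fin.last n)).subtype)
    (fun x => ⟨⟨x, hlast ▸ mem_top x⟩, rfl⟩)

end Cfsg.Agent.TwoLen
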